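import Mathlib

/-! Blocks with three characters: transitive `p'`-groups with two good classes (definitions). -/

set_option autoImplicit false

namespace CfsgLib.K3B

open Subgroup

/-- `x` lies in a cyclic subgroup with every element commuting with it. -/
def CG {E : Type*} [Group E] (x : E) : Prop :=
  ∀ z : E, x * z = z * x → ∃ w : E, x ∈ zpowers w ∧ z ∈ zpowers w

theorem CG.one {E : Type*} [Group E] : CG (1 : E) := fun z _ => ⟨z, one_mem _, mem_zpowers z⟩

theorem CG.inv {E : Type*} [Group E] {x : E} (h : CG x) : CG x⁻¹ := fun z hz => by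
  obtain ⟨w, h1, h2⟩ := h z (Commute.inv_left_iff.1 hz)
  exact ⟨w, inv_mem h1, h2⟩

variable {E A : Type*} [Group E] [CommGroup A]

/-- The stabiliser of `a`. -/
def stab (φ : E →* MulAut A) (a : A) : Subgroup E :=
  (MulAction.stabilizer (MulAut A) a).comap φ

theorem mem_stab {φ : E →* MulAut A} {a : A} {e : E} : e ∈ stab φ a ↔ φ e a = a := Iff.rfl

/-- The fixed points of `e`. -/
def fix (φ : E →* MulAut A) (e : E) : Subgroup A :=
  (φ e).toMonoidHom.eqLocus (MonoidHom.id A)

theorem mem_fix {φ : E →* MulAut A} {a : A} {e : E} : a ∈ fix φ e ↔ φ e a = a := Iff.rfl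

/-- A `p'`-group `E` acting faithfully and transitively on the non-identity elements of the abelian
`p`-group `A`, with point stabilisers of central type and at most two good classes. -/
structure Tr (p : ℕ) (φ : E →* MulAut A) : Prop where
  pA : IsPGroup p A
  cop : ¬ p ∣ Nat.card E
  inj : Function.Injective φ
  trans : ∀ a b : A, a ≠ 1 → b ≠ 1 → ∃ e : E, φ e a = b
  sq : ∀ a : A, a ≠ 1 → IsSquare (Nat.card (stab φ a))
  cyc : ∀ a : A, a ≠ 1 → IsCyclic (stab φ a) → stab φ a = ⊥
  good : ∀ x y : E, x ≠ 1 → y ≠ 1 → CG x → CG y → IsConj x y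

end CfsgLib.K3B
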