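import Mathlib
import Cfsg.Agent.Lib.K3B.Defs
import Cfsg.Agent.Lib.Coprime.Aut

/-! K3B package GT1: tools for `Tr`, the free case and `|A| ∣ p²`.

Let `E` act on `A` by `MulAction.compHom A φ` (or `MulDistribMulAction.compHom`).
`card_eq`: orbit of `a` = `A \ {1}`, orbit-stabiliser. `exp`: if `A ≠ 1` some `a₀` has order `p`
(Cauchy), every `a ≠ 1` is `φ e a₀`. `cyc_of_free`: `Coprime.aut_le_of_forall_fixed` for
`φ.comp U.subtype`, `K = ⊤`, `H = ⊥` (coprime: `|A|` is a power of `p`, `p ∤ |E|`).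
`cg_of_free`: for `z` commuting with `x`, `closure {x, z} ≤ centralizer {x}` is abelian and free,
hence cyclic `= zpowers w`. `modEq`: `IsPGroup.card_modEq_card_fixedPoints` for `zpowers x` acting on
the invariant subgroup `B`. `orb`: `B \ {1}` is a union of `S`-orbits, and each orbit of `a ≠ 1` has
size `[S : S ⊓ stab a]`, divisible by `s^k`: `|S ⊓ stab a|` is a power of `s` dividing `|stab a|` and
`|E| = (|A| - 1) |stab a|` (compare `factorization s`).
`free`: every `x` is `CG` (`cg_of_free`), so all `x ≠ 1` are conjugate; if `E ≠ 1` the class has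
`|E| - 1` elements and divides `|E|`, so `|E| ≤ 2`; `|E| = |A| - 1` by `card_eq`.
`small`: `|A| = p`: `A = zpowers a`, so `stab a = ⊥` by `inj`. `|A| = p²`: `e ∈ stab a` induces an
automorphism of `A ⧸ zpowers a` (order `p`, `MulAut` cyclic: `IsCyclic.mulAutMulEquiv`,
`ZMod.isCyclic_units_prime`); the map is injective: if `e` is trivial on `A ⧸ ⟨a⟩` then
`φ e b = b * c`, `c ∈ ⟨a⟩` fixed by `e`, so `φ (e^p) b = b * c^p = b`, `e^p = 1`, `e = 1` as `p ∤ |E|`.
So `stab a` is cyclic, trivial by `cyc`; apply `free`. -/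

set_option autoImplicit false

namespace CfsgLib.K3B

open Subgroup

variable {E A : Type*} [Group E] [CommGroup A] [Finite E] [Finite A] {p : ℕ} [hp : Fact p.Prime]
  {φ : E →* MulAut A}

omit [Finite E] [Finite A] in
/-- the action of `U` on an invariant subset -/
@[reducible] def gtAct (φ : E →* MulAut A) (U : Subgroup E) (P : A → Prop)
    (hP : ∀ e ∈ U, ∀ b, P b → P (φ e b)) : MulAction U {b // P b} where
  smul e b := ⟨φ e b, hP e e.2 b b.2⟩
  one_smul b := Subtype.ext (by change φ (1 : E) (b : A) = b; simp)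
  mul_smul e e' b := Subtype.ext (by change φ (e * e' : E) (b : A) = φ e (φ e' b); simp)

theorem gt_dvd_card {G X : Type*} [Group G] [MulAction G X] [Finite X] {m : ℕ}
    (h : ∀ x : X, m ∣ (MulAction.stabilizer G x).index) : m ∣ Nat.card X := by
  have := Fintype.ofFinite (Quotient (MulAction.orbitRel G X))
  have : ∀ ω : Quotient (MulAction.orbitRel G X), Finite (G ⧸ MulAction.stabilizer G ω.out) :=
    fun ω => Finite.of_equiv _ (MulAction.orbitEquivQuotientStabilizer G ω.out)
  rw [Nat.card_congr (MulAction.selfEquivSigmaOrbitsQuotientStabilizer G X), Nat.card_sigma]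
  exact Finset.dvd_sum fun ω _ => h _

theorem gt_ncard {X : Type*} [Finite X] (a : X) : {x | x ≠ a}.ncard = Nat.card X - 1 := by
  rw [← Set.ncard_univ, ← Set.ncard_sdiff_singleton_of_mem (Set.mem_univ a)]
  congr 1
  ext x
  simp

theorem Tr.card_eq (h : Tr p φ) {a : A} (ha : a ≠ 1) :
    Nat.card E = (Nat.card A - 1) * Nat.card (stab φ a) := by
  let := MulAction.compHom A φ
  have h1 : MulAction.orbit E a = {x | x ≠ 1} := by
    ext b
    refine ⟨?_, fun hb => h.trans a b ha hb⟩
    rintro ⟨e, rfl⟩ he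
    exact ha ((φ e).map_eq_one_iff.1 he)
  rw [← gt_ncard (1 : A), ← h1, ← MulAction.index_stabilizer]
  exact (index_mul_card _).symm

theorem Tr.exp (h : Tr p φ) (a : A) : a ^ p = 1 := by
  by_cases ha : a = 1
  · rw [ha, one_pow]
  have : Nontrivial A := ⟨a, 1, ha⟩
  obtain ⟨n, hn, e⟩ := h.pA.nontrivial_iff_card.1 this
  obtain ⟨b, hb⟩ := exists_prime_orderOf_dvd_card' (G := A) p (e ▸ dvd_pow_self p hn.ne')
  obtain ⟨g, rfl⟩ := h.trans b a (fun e => hp.out.one_lt.ne' (by rw [← hb, e, orderOf_one])) ha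
  rw [← map_pow, ← hb, pow_orderOf_eq_one, map_one]

theorem Tr.cyc_of_free (h : Tr p φ) [Nontrivial A] (U : Subgroup E) (hc : IsMulCommutative U)
    (hf : ∀ u ∈ U, u ≠ 1 → fix φ u = ⊥) : IsCyclic U := by
  by_contra hU
  refine (bot_lt_top (α := Subgroup A)).not_ge
    (Coprime.aut_le_of_forall_fixed (φ := φ.comp U.subtype) hU Coprime.autInv_top ?_
      fun u hu g _ hg => ?_)
  · obtain ⟨k, hk⟩ := h.pA.exists_card_eq
    rw [card_top, hk]
    exact (hp.out.coprime_iff_not_dvd.2 fun hd => h.cop (hd.trans (card_subgroup_dvd_card U))).symm.pow_right k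
  · rw [← hf u u.2 fun e => hu (Subtype.ext e)]
    exact hg

theorem Tr.cg_of_free (h : Tr p φ) [Nontrivial A] {x : E}
    (hf : ∀ u : E, x * u = u * x → u ≠ 1 → fix φ u = ⊥) : CG x := by
  intro z hz
  have hle : closure ({x, z} : Set E) ≤ centralizer {x} := (closure_le _).2 (by
    rintro _ (rfl | rfl)
    · exact mem_centralizer_singleton_iff.2 rfl
    · exact mem_centralizer_singleton_iff.2 hz.symm)
  have := h.cyc_of_free (closure ({x, z} : Set E)) (isMulCommutative_closure (by
    rintro _ (rfl | rfl) _ (rfl | rfl) <;> first | rfl | exact hz | exact hz.symm))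
    fun u hu => hf u (mem_centralizer_singleton_iff.1 (hle hu)).symm
  obtain ⟨w, hw⟩ := IsCyclic.exists_generator (α := closure ({x, z} : Set E))
  have key : ∀ y ∈ ({x, z} : Set E), y ∈ zpowers (w : E) := fun y hy => by
    obtain ⟨k, hk⟩ := hw ⟨y, subset_closure hy⟩
    exact ⟨k, congrArg Subtype.val hk⟩
  exact ⟨w, key x (by simp), key z (by simp)⟩

theorem modEq_fix {x : E} {s : ℕ} (hs : s.Prime) (hx : orderOf x = s) (B : Subgroup A)
    (hB : ∀ b ∈ B, φ x b ∈ B) :
    Nat.card B ≡ Nat.card (B ⊓ fix φ x : Subgroup A) [MOD s] := by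
  have := Fact.mk hs
  have hP : ∀ e ∈ zpowers x, ∀ b, b ∈ B → φ e b ∈ B := fun e he b hb => by
    obtain ⟨k, rfl⟩ := mem_powers_iff_mem_zpowers.2 he
    induction k with
    | zero => simpa using hb
    | succ k ih =>
      simp only [pow_succ', map_mul, MulAut.mul_apply]
      exact hB _ (ih (pow_mem (mem_zpowers x) k))
  let := gtAct φ (zpowers x) (· ∈ B) hP
  have h1 := (IsPGroup.of_card (p := s) (n := 1) (G := zpowers x)
    (by rw [Nat.card_zpowers, hx, pow_one])).card_modEq_card_fixedPoints B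
  have h2 : Nat.card (MulAction.fixedPoints (zpowers x) B) = Nat.card (B ⊓ fix φ x : Subgroup A) := by
    refine Nat.card_congr
      { toFun := fun b => ⟨b.1.1, b.1.2, congrArg Subtype.val (b.2 ⟨x, mem_zpowers x⟩)⟩
        invFun := fun b => ⟨⟨b.1, b.2.1⟩, fun e => Subtype.ext
          ((zpowers_le.2 (show x ∈ stab φ b.1 from b.2.2)) e.2)⟩
        left_inv := fun _ => rfl
        right_inv := fun _ => rfl }
  rwa [h2] at h1

theorem Tr.orb (h : Tr p φ) {s : ℕ} [Fact s.Prime] (S : Sylow s E) (B : Subgroup A)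
    (hB : ∀ e ∈ (S : Subgroup E), ∀ b ∈ B, φ e b ∈ B) {k : ℕ} (hk : s ^ k ∣ Nat.card A - 1) :
    s ^ k ∣ Nat.card B - 1 := by
  let := gtAct φ S (fun b => b ∈ B ∧ b ≠ 1) fun e he b hb =>
    ⟨hB e he b hb.1, fun e1 => hb.2 ((φ e).map_eq_one_iff.1 e1)⟩
  have h1 : Nat.card {b // b ∈ B ∧ b ≠ 1} = Nat.card B - 1 := by
    rw [← gt_ncard (1 : B), ← Nat.card_coe_set_eq]
    exact Nat.card_congr
      { toFun := fun b => ⟨⟨b.1, b.2.1⟩, fun e => b.2.2 (congrArg Subtype.val e)⟩
        invFun := fun b => ⟨b.1.1, b.1.2, fun e => b.2 (Subtype.ext e)⟩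
        left_inv := fun _ => rfl
        right_inv := fun _ => rfl }
  rw [← h1]
  refine gt_dvd_card (G := (S : Subgroup E)) fun b => ?_
  have h2 : MulAction.stabilizer (S : Subgroup E) b = (stab φ b.1).subgroupOf S :=
    Subgroup.ext fun e => Subtype.ext_iff
  obtain ⟨j, hj⟩ := (S.2.to_subgroup ((stab φ b.1).subgroupOf S)).exists_card_eq
  have h3 : s ^ j ∣ Nat.card (stab φ b.1) := hj ▸ card_comap_dvd_of_injective _ _ (subtype_injective _)
  have h4 : s ^ (k + j) ∣ Nat.card S := S.pow_dvd_card_of_pow_dvd_card (by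
    rw [h.card_eq b.2.2, pow_add]
    exact mul_dvd_mul hk h3)
  rw [← index_mul_card ((stab φ b.1).subgroupOf S), hj, pow_add] at h4
  rw [h2]
  exact Nat.dvd_of_mul_dvd_mul_right (pow_pos (Fact.out : s.Prime).pos j) h4

theorem Tr.free (h : Tr p φ) (hf : ∀ a : A, a ≠ 1 → stab φ a = ⊥) : Nat.card A ≤ 3 := by
  rcases subsingleton_or_nontrivial A with hA | hA
  · rw [Nat.card_of_subsingleton (1 : A)]
    norm_num
  obtain ⟨a, ha⟩ := exists_ne (1 : A)
  have h1 := h.card_eq ha
  rw [hf a ha, card_bot, mul_one] at h1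
  have hc : ∀ x : E, CG x := fun x => h.cg_of_free fun u _ hu => eq_bot_iff.2 fun b hb => by
    by_contra hb1
    exact hu ((hf b hb1).le hb)
  rcases subsingleton_or_nontrivial E with hE | hE
  · rw [Nat.card_of_subsingleton (1 : E)] at h1
    omega
  obtain ⟨x, hx⟩ := exists_ne (1 : E)
  have h2 : MulAction.orbit (ConjAct E) x = {y | y ≠ 1} := by
    ext y
    rw [ConjAct.mem_orbit_conjAct]
    exact ⟨fun hy e => hx (isConj_one_right.1 (e ▸ hy)), fun hy => h.good y x hy hx (hc y) (hc x)⟩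
  have h3 := index_dvd_card (MulAction.stabilizer (ConjAct E) x)
  rw [MulAction.index_stabilizer, h2, gt_ncard] at h3
  change _ ∣ Nat.card E at h3
  have h4 := Finite.one_lt_card_iff_nontrivial.2 hE
  obtain ⟨m, hm⟩ : ∃ m, Nat.card E = m + 1 := ⟨Nat.card E - 1, by omega⟩
  rw [hm, Nat.add_sub_cancel, Nat.dvd_add_self_left, Nat.dvd_one] at h3
  omega

theorem Tr.small (h : Tr p φ) (hA : Nat.card A ∣ p ^ 2) : Nat.card A ≤ 3 := by
  refine h.free fun a ha => h.cyc a ha ?_
  have ho : orderOf a = p := orderOf_eq_prime (h.exp a) ha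
  have hQ : Nat.card (A ⧸ zpowers a) ∣ p := by
    rw [card_eq_card_quotient_mul_card_subgroup (zpowers a), Nat.card_zpowers, ho, pow_two] at hA
    exact Nat.dvd_of_mul_dvd_mul_right hp.out.pos hA
  have := isCyclic_of_card_dvd_prime hQ
  have : IsCyclic (ZMod (Nat.card (A ⧸ zpowers a)))ˣ := by
    rcases (Nat.dvd_prime hp.out).1 hQ with e | e <;> rw [e]
    · exact ZMod.isCyclic_units_one
    · exact ZMod.isCyclic_units_prime hp.out
  have : IsCyclic (MulAut (A ⧸ zpowers a)) :=
    isCyclic_of_injective (IsCyclic.mulAutMulEquiv (A ⧸ zpowers a)).toMonoidHom (MulEquiv.injective _)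
  let ψ : stab φ a →* MulAut (A ⧸ zpowers a) := MonoidHom.mk'
    (fun e => QuotientGroup.congr _ _ (φ e) (by
      rw [MonoidHom.map_zpowers]
      exact congrArg zpowers e.2))
    fun e e' => MulEquiv.ext fun q => QuotientGroup.induction_on q fun b => by simp
  refine isCyclic_of_injective ψ ((injective_iff_map_eq_one ψ).2 fun e he => Subtype.ext ?_)
  have h1 : (e : E) ^ p = 1 := (injective_iff_map_eq_one φ).1 h.inj _ (MulEquiv.ext fun b => by
    have h2 : (φ e b : A ⧸ zpowers a) = b := congrArg (fun f : MulAut _ => f (b : A ⧸ zpowers a)) he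
    obtain ⟨k, hk⟩ := QuotientGroup.eq.1 h2.symm
    simp only at hk
    have h3 : φ e (a ^ k) = a ^ k := by rw [map_zpow, mem_stab.1 e.2]
    have h4 : ∀ m : ℕ, φ ((e : E) ^ m) b = b * (a ^ k) ^ m := fun m => by
      induction m with
      | zero => simp
      | succ m ih =>
        rw [pow_succ', map_mul, MulAut.mul_apply, ih, map_mul, map_pow, h3, pow_succ', ← mul_assoc, hk,
          mul_inv_cancel_left]
    rw [h4, h.exp, mul_one, MulAut.one_apply])
  by_contra e1
  exact h.cop (orderOf_eq_prime h1 e1 ▸ orderOf_dvd_natCard _)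

end CfsgLib.K3B
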