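import Mathlib
import Cfsg.Agent.Lib.K3B.Tools

/-! K3B package GT2: primitive prime divisors.

`irred`: let `x` have order `r`, `B` an `x`-invariant subgroup, `|B| = p^j` (`j ≤ n`). First
`fix x = ⊥`: `|fix x| = p^k`, `k < n` (`inj`), `p^n ≡ p^k mod r` (`modEq_fix`, `B = ⊤`) and `r ∣ p^n - 1`
give `r ∣ p^k - 1`, so `k = 0`. Then `modEq_fix` gives `r ∣ p^j - 1`, so `j = 0` or `j = n`.
`zs`: `r ∣ |E|` (`card_eq`), Cauchy. For `u` commuting with `x`, `fix u` is `x`-invariant, so `= ⊥` for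
`u ≠ 1`; `cg_of_free` gives `CG x` for EVERY `x` of order `r`. If `y` commutes with `x`, take `w` with
`x, y ∈ ⟨w⟩`; every `u` commuting with `w` commutes with `x`, so `CG w` (`cg_of_free`), `w ≠ 1`,
`w` is conjugate to `x` (`good`), has order `r`, `⟨w⟩ = ⟨x⟩`, `y ∈ ⟨x⟩`.
`not_sq`: a Sylow `r`-subgroup `R ≠ 1` has a central `x` of order `r`, `R ≤ C(x) ≤ ⟨x⟩`; so
`r² ∤ |E|`, and `p^n - 1 ∣ |E|`.
`le_succ`: `x^i` (`1 ≤ i < r`) has order `r`, so it is conjugate to `x` in `E`. Make `V = Additive A` a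
`ZMod p`-module (`AddCommGroup.zmodModule` / `AddCommMonoid.zmodModule` from `Tr.exp`), of dimension
`n`; `ρ : E →* Module.End (ZMod p) V` (or units); `χ = (ρ x).charpoly` is monic of degree `n`, and
`aeval (ρ x ^ i) χ = 0` (conjugate Cayley–Hamilton: `aeval (g T g⁻¹) χ = g (aeval T χ) g⁻¹`). The ring
`R = Algebra.adjoin (ZMod p) {ρ x}` is commutative and a domain (the kernel of an element of `R` is
`x`-invariant, so by `irred` nonzero elements are injective). The `r - 1` elements `ρ x ^ i` of `R` are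
distinct roots of the monic `χ.map (algebraMap _ R)`, so `r - 1 ≤ n` (`Polynomial.card_roots'`).
(Alternative without `R`: `∏ (ρ x^i - ρ x^j)` are injective; any proof is fine.) -/

set_option autoImplicit false

namespace CfsgLib.K3B

open Subgroup

variable {E A : Type*} [Group E] [CommGroup A] [Finite E] [Finite A] {p : ℕ} [hp : Fact p.Prime]
  {φ : E →* MulAut A} {n r : ℕ}

theorem zs_semiconj {K R : Type*} [CommSemiring K] [Semiring R] [Algebra K R] {S T T' : R}
    (h : S * T = T' * S) (f : Polynomial K) :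
    S * Polynomial.aeval T f = Polynomial.aeval T' f * S := by
  induction f using Polynomial.induction_on' with
  | add f g hf hg => rw [map_add, map_add, mul_add, add_mul, hf, hg]
  | monomial n a =>
    rw [Polynomial.aeval_monomial, Polynomial.aeval_monomial, ← Algebra.smul_def, ← Algebra.smul_def,
      mul_smul_comm, smul_mul_assoc, (SemiconjBy.pow_right h n).eq]

theorem Tr.irred (h : Tr p φ) (hn : Nat.card A = p ^ n) (hr : r.Prime) (h1 : r ∣ p ^ n - 1)
    (h2 : ∀ i, 1 ≤ i → i < n → ¬ r ∣ p ^ i - 1) {x : E} (hx : orderOf x = r) (B : Subgroup A)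
    (hB : ∀ b ∈ B, φ x b ∈ B) : B = ⊥ ∨ B = ⊤ := by
  have hle : ∀ C : Subgroup A, C ≠ ⊤ → Nat.card C ≡ 1 [MOD r] → C = ⊥ := fun C hC e => by
    obtain ⟨j, hj⟩ := (h.pA.to_subgroup C).exists_card_eq
    have hlt : j < n := by
      rw [← Nat.pow_lt_pow_iff_right hp.out.one_lt, ← hj, ← hn, ← card_top (G := A)]
      exact lt_of_le_of_ne (card_le_of_le le_top) fun e => hC (eq_of_le_of_card_ge le_top e.ge)
    rw [← card_eq_one, hj]
    by_contra h0
    refine h2 j (Nat.one_le_iff_ne_zero.2 fun e => h0 (by rw [e, pow_zero])) hlt ?_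
    rw [hj] at e
    exact (Nat.modEq_iff_dvd' (Nat.one_le_pow _ _ hp.out.pos)).1 e.symm
  have hf : fix φ x = ⊥ := by
    refine hle _ (fun e => ?_) ?_
    · have : x = 1 := (injective_iff_map_eq_one φ).1 h.inj _
        (MulEquiv.ext fun b => (show b ∈ fix φ x from e ▸ mem_top b))
      rw [this, orderOf_one] at hx
      exact hr.one_lt.ne hx
    · have h3 := modEq_fix (φ := φ) hr hx ⊤ fun _ _ => mem_top _
      rw [top_inf_eq, card_top, hn] at h3
      exact h3.symm.trans ((Nat.modEq_iff_dvd' (Nat.one_le_pow _ _ hp.out.pos)).2 h1).symm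
  by_cases hT : B = ⊤
  · exact Or.inr hT
  · have h3 := modEq_fix hr hx B hB
    rw [hf, inf_bot_eq, card_bot] at h3
    exact Or.inl (hle B hT h3)

theorem Tr.zs (h : Tr p φ) (hn : Nat.card A = p ^ n) (h0 : 0 < n) (hr : r.Prime)
    (h1 : r ∣ p ^ n - 1) (h2 : ∀ i, 1 ≤ i → i < n → ¬ r ∣ p ^ i - 1) :
    (∃ x : E, orderOf x = r) ∧
      ∀ x : E, orderOf x = r → CG x ∧ ∀ y : E, x * y = y * x → y ∈ zpowers x := by
  have : Nontrivial A := Finite.one_lt_card_iff_nontrivial.1 (hn ▸ Nat.one_lt_pow h0.ne' hp.out.one_lt)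
  have := Fact.mk hr
  obtain ⟨a, ha⟩ := exists_ne (1 : A)
  refine ⟨exists_prime_orderOf_dvd_card' r (by rw [h.card_eq ha, hn]; exact h1.mul_right _),
    fun x hx => ?_⟩
  have hf : ∀ u : E, x * u = u * x → u ≠ 1 → fix φ u = ⊥ := fun u hu u1 => by
    refine (h.irred hn hr h1 h2 hx _ fun b hb => ?_).resolve_right fun e => u1
      ((injective_iff_map_eq_one φ).1 h.inj _
        (MulEquiv.ext fun b => (show b ∈ fix φ u from e ▸ mem_top b)))
    rw [mem_fix, ← MulAut.mul_apply, ← map_mul, ← hu, map_mul, MulAut.mul_apply, mem_fix.1 hb]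
  have x1 : x ≠ 1 := fun e => hr.one_lt.ne (by rw [← hx, e, orderOf_one])
  refine ⟨h.cg_of_free hf, fun y hy => ?_⟩
  obtain ⟨w, hw, hw'⟩ := h.cg_of_free hf y hy
  have hc : CG w := h.cg_of_free fun u hu => hf u (by
    obtain ⟨k, rfl⟩ := hw
    exact Commute.zpow_left hu k)
  have w1 : w ≠ 1 := fun e => x1 (by rwa [e, zpowers_one_eq_bot, mem_bot] at hw)
  obtain ⟨g, hg⟩ := isConj_iff.1 (h.good x w x1 w1 (h.cg_of_free hf) hc)
  have ho : orderOf w = orderOf x := by
    rw [← hg]
    exact orderOf_injective (MulAut.conj g).toMonoidHom (MulAut.conj g).injective x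
  rwa [eq_of_le_of_card_ge (zpowers_le.2 hw) (by rw [Nat.card_zpowers, Nat.card_zpowers, ho])]

theorem Tr.not_sq (h : Tr p φ) (hn : Nat.card A = p ^ n) (h0 : 0 < n) (hr : r.Prime)
    (h1 : r ∣ p ^ n - 1) (h2 : ∀ i, 1 ≤ i → i < n → ¬ r ∣ p ^ i - 1) : ¬ r ^ 2 ∣ p ^ n - 1 := by
  intro hd
  have : Nontrivial A := Finite.one_lt_card_iff_nontrivial.1 (hn ▸ Nat.one_lt_pow h0.ne' hp.out.one_lt)
  have := Fact.mk hr
  obtain ⟨a, ha⟩ := exists_ne (1 : A)
  obtain ⟨R, hR⟩ := Sylow.exists_subgroup_card_pow_prime (G := E) r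
    (show r ^ 2 ∣ Nat.card E by rw [h.card_eq ha, hn]; exact hd.mul_right _)
  obtain ⟨x, hx⟩ := exists_prime_orderOf_dvd_card' (G := R) r (hR ▸ dvd_pow_self r two_ne_zero)
  have hc := IsPGroup.isMulCommutative_of_card_eq_prime_sq hR
  have hx' : orderOf (x : E) = r := by rw [orderOf_coe, hx]
  have h3 : R ≤ zpowers (x : E) := fun y hy => ((h.zs hn h0 hr h1 h2).2 x hx').2 y
    (congrArg Subtype.val (hc.is_comm.comm x ⟨y, hy⟩))
  have h4 := card_le_of_le h3
  rw [hR, Nat.card_zpowers, hx'] at h4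
  have := hr.one_lt
  nlinarith

theorem Tr.le_succ (h : Tr p φ) (hn : Nat.card A = p ^ n) (h0 : 0 < n) (hr : r.Prime)
    (h1 : r ∣ p ^ n - 1) (h2 : ∀ i, 1 ≤ i → i < n → ¬ r ∣ p ^ i - 1) : r ≤ n + 1 := by
  classical
  have : Nontrivial A := Finite.one_lt_card_iff_nontrivial.1 (hn ▸ Nat.one_lt_pow h0.ne' hp.out.one_lt)
  obtain ⟨⟨x, hx⟩, hz⟩ := h.zs hn h0 hr h1 h2
  have : NeZero p := ⟨hp.out.ne_zero⟩
  obtain ⟨_⟩ : Nonempty (Module (ZMod p) (Additive A)) :=
    ⟨AddCommGroup.zmodModule fun a => h.exp a.toMul⟩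
  have : Module.Finite (ZMod p) (Additive A) := Module.Finite.of_finite
  have hd : Module.finrank (ZMod p) (Additive A) = n := by
    have h3 := Module.natCard_eq_pow_finrank (K := ZMod p) (V := Additive A)
    rw [Nat.card_zmod, show Nat.card (Additive A) = p ^ n from hn] at h3
    exact (Nat.pow_right_injective hp.out.two_le h3).symm
  let ρ : E →* Module.End (ZMod p) (Additive A) :=
    { toFun := fun e => (MonoidHom.toAdditive (φ e).toMonoidHom).toZModLinearMap p
      map_one' := LinearMap.ext fun a => by simp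
      map_mul' := fun e e' => LinearMap.ext fun a => by simp }
  have hρ : Function.Injective ρ := fun e e' he => h.inj (MulEquiv.ext fun a =>
    congrArg Additive.toMul (LinearMap.congr_fun he (Additive.ofMul a)))
  let R := Algebra.adjoin (ZMod p) {ρ x}
  let t : R := ⟨ρ x, Algebra.self_mem_adjoin_singleton _ _⟩
  have : NoZeroDivisors R := ⟨fun {a b} hab => by
    refine (h.irred hn hr h1 h2 hx (AddSubgroup.toSubgroup' (LinearMap.ker a.1).toAddSubgroup)
      fun v hv => ?_).symm.imp (fun e => Subtype.ext (LinearMap.ext fun v => ?_))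
      fun e => Subtype.ext (LinearMap.ext fun v => ?_)
    · have h3 := LinearMap.congr_fun (congrArg Subtype.val (mul_comm a t)) (Additive.ofMul v)
      change a.1 (ρ x (Additive.ofMul v)) = ρ x (a.1 (Additive.ofMul v)) at h3
      rw [show a.1 (Additive.ofMul v) = 0 from hv, map_zero] at h3
      exact h3
    · exact (e ▸ mem_top v.toMul : v.toMul ∈ AddSubgroup.toSubgroup' (LinearMap.ker a.1).toAddSubgroup)
    · have h3 : (b.1 v).toMul ∈ AddSubgroup.toSubgroup' (LinearMap.ker a.1).toAddSubgroup :=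
        LinearMap.congr_fun (congrArg Subtype.val hab) v
      rw [e, mem_bot] at h3
      exact h3⟩
  have : IsDomain R := NoZeroDivisors.to_isDomain R
  have hm := (ρ x).charpoly_monic
  have h3 := Polynomial.card_le_degree_of_subset_roots (p := (ρ x).charpoly.map (algebraMap _ R))
    (Z := (Finset.Ico 1 r).image (t ^ ·)) fun c hc => by
      obtain ⟨i, hi, rfl⟩ := Finset.mem_image.1 (Finset.mem_def.2 hc)
      rw [Finset.mem_Ico] at hi
      have ho : orderOf (x ^ i) = r := by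
        rw [← hx]
        exact Nat.Coprime.orderOf_pow (by
          rw [hx]; exact Nat.coprime_of_lt_prime (by omega) hi.2 hr)
      have n1 : ∀ y : E, orderOf y = r → y ≠ 1 := fun y hy e =>
        hr.one_lt.ne (by rw [← hy, e, orderOf_one])
      obtain ⟨g, hg⟩ := isConj_iff.1 (h.good x _ (n1 _ hx) (n1 _ ho) (hz _ hx).1 (hz _ ho).1)
      have h4 := zs_semiconj (S := ρ g) (T := ρ x) (T' := ρ x ^ i) (by
        rw [← map_pow, ← map_mul, ← map_mul, ← hg, inv_mul_cancel_right]) (ρ x).charpoly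
      rw [LinearMap.aeval_self_charpoly, mul_zero] at h4
      have h5 := congrArg (· * ρ g⁻¹) h4
      simp only [zero_mul, mul_assoc, ← map_mul, mul_inv_cancel, map_one, mul_one] at h5
      rw [Polynomial.mem_roots (hm.map _).ne_zero, Polynomial.IsRoot, Polynomial.eval_map_algebraMap]
      exact Subtype.ext ((Polynomial.aeval_algHom_apply R.val (t ^ i) _).symm.trans h5.symm)
  rw [Finset.card_image_of_injOn, hm.natDegree_map, LinearMap.charpoly_natDegree, hd, Nat.card_Ico] at h3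
  · omega
  · intro i hi j hj e
    rw [Finset.coe_Ico] at hi hj
    have h4 : ρ x ^ i = ρ x ^ j := congrArg Subtype.val e
    rw [← map_pow, ← map_pow] at h4
    exact pow_injOn_Iio_orderOf (hx ▸ hi.2) (hx ▸ hj.2) (hρ h4)

end CfsgLib.K3B
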