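import Mathlib
import Cfsg.Agent.Lib.K3B.Zs
import Cfsg.Agent.Lib.Spec.Zsig

/-! K3B package GT3: the exceptional cases and the group-theoretic theorem `Tr.card_le`.

`two`: `|E|` is odd, `x⁻¹` is `CG` (`CG.inv`), so `g x g⁻¹ = x⁻¹`; `g²` centralises `x`, `g` has odd
order so `g` centralises `x`, `x² = 1`, `x = 1`.
`six`: every `y` of order `s` has `|fix y| = p^k`, `k < 6`, `s ∣ p^k - 1` (`modEq_fix`), so `k ∈ {0,3}`.
Fix `a ≠ 1`. If `s² ∣ |stab a|`, take `U ≤ stab a` of order `s²` (`Sylow.exists_subgroup_card_pow_prime`),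
`B = C_A(U) ∋ a`; `|A| ≡ |B| mod s` (`IsPGroup.card_modEq_card_fixedPoints`), `B ≠ 1, A`, so `|B| = p³`.
For `1 ≠ u ∈ U` a power `y` of `u` has order `s`, `B ≤ fix u ≤ fix y`, `|fix y| ≤ p³`, so `fix u = B`: `U`
acts freely on `A \ B` and `s² ∣ p⁶ - p³ = p³ (p³ - 1)`, so `s² ∣ p³ - 1 ∣ p⁶ - 1`, absurd. As `|stab a|`
is a square, `s ∤ |stab a|`, so `s² ∤ |E| = (p⁶ - 1) |stab a|`. Take `y` of order `s`; if `z` commutes
with `y`: in the abelian group `⟨y, z⟩` write `z = z₁ z₂` (powers of `z`, `z₁` an `s`-element, `z₂` of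
order prime to `s`); `⟨y, z₁⟩` is an `s`-group, of order `≤ s`, so `z₁ ∈ ⟨y⟩`; `w = y z₂` has `y, z₂ ∈ ⟨w⟩`.
`four` (`|A| = 81`): `r = 5` satisfies the hypotheses of `zs` (`n = 4`), `x` of order 5, `C(x) ≤ ⟨x⟩`.
`S` Sylow 2 (`2 ∣ 80 ∣ |E|`), `z ∈ Z(S)` an involution; `fix z` is `S`-invariant, `16 ∣ |fix z| - 1` (`orb`),
`|fix z| ∈ {1,3,9,27}`, so `fix z = ⊥`; `a * φ z a ∈ fix z`, so `φ z a = a⁻¹` for all `a`, `φ z` commutes
with `φ x`, `z ∈ ⟨x⟩` of order 5, absurd.
`card_le`: `|A| = p^n`; `n ≤ 2`: `small`. `n ≥ 3`: `p = 2`: `n = 6`: `six` with `s = 7`, then `two`;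
else `Spec.zsigmondy`, `zs`, `two`. `p` odd: `(3,4)`: `four`; `(3,6)`: `zs` with `r = 7` and `six` with
`s = 13`, `good` makes elements of orders 7 and 13 conjugate; `(5,6)`: `r = 7`, `s = 31`; otherwise
`Spec.exists_large_zsig` contradicts `le_succ` / `not_sq`. -/

set_option autoImplicit false

namespace CfsgLib.K3B

open Subgroup

variable {E A : Type*} [Group E] [CommGroup A] [Finite E] [Finite A] {φ : E →* MulAut A}

theorem Tr.two (h : Tr 2 φ) {x : E} (h1 : x ≠ 1) (hx : CG x) : False := by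
  have hodd : ∀ g : E, Odd (orderOf g) := fun g => by
    rw [← Nat.not_even_iff_odd, even_iff_two_dvd]
    exact fun h2 => h.cop (h2.trans (orderOf_dvd_natCard g))
  obtain ⟨g, hg⟩ := isConj_iff.1 (h.good x x⁻¹ h1 (inv_ne_one.2 h1) hx hx.inv)
  have h2 : Commute (g ^ 2) x := by
    have e : g * x⁻¹ * g⁻¹ = x := by
      have := congrArg (·⁻¹) hg
      simpa [mul_assoc] using this
    have : g ^ 2 * x * (g ^ 2)⁻¹ = x := by
      calc g ^ 2 * x * (g ^ 2)⁻¹ = g * (g * x * g⁻¹) * g⁻¹ := by rw [pow_two]; group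
        _ = x := by rw [hg, e]
    exact mul_inv_eq_iff_eq_mul.1 this
  have h3 : Commute g x := by
    obtain ⟨k, hk⟩ := hodd g
    have : g = (g ^ 2) ^ (k + 1) := by
      rw [← pow_mul, show 2 * (k + 1) = orderOf g + 1 by omega, pow_succ, pow_orderOf_eq_one, one_mul]
    rw [this]
    exact h2.pow_left _
  have h4 : x ^ 2 = 1 := by
    rw [h3.eq, mul_inv_cancel_right] at hg
    rw [pow_two]
    nth_rewrite 1 [hg]
    exact inv_mul_cancel x
  have h5 := orderOf_dvd_of_pow_eq_one h4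
  rcases (Nat.dvd_prime Nat.prime_two).1 h5 with h6 | h6
  · exact h1 (orderOf_eq_one_iff.1 h6)
  · have := hodd x
    rw [h6] at this
    exact absurd this (by decide)

omit [Finite E] in
/-- An element of `s`-power order fixes `|A|` points modulo `s`. -/
theorem modEq_fix' {s : ℕ} [Fact s.Prime] {u : E} (hu : IsPGroup s (zpowers u)) :
    Nat.card A ≡ Nat.card (fix φ u) [MOD s] := by
  let : MulAction (zpowers u) A := MulAction.compHom A (φ.comp (zpowers u).subtype)
  have h := hu.card_modEq_card_fixedPoints A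
  have e : MulAction.fixedPoints (zpowers u) A = (fix φ u : Set A) := by
    ext a
    rw [MulAction.mem_fixedPoints]
    refine ⟨fun ha => ha ⟨u, mem_zpowers u⟩, fun ha g => ?_⟩
    have : zpowers u ≤ stab φ a := zpowers_le.2 (mem_stab.2 (mem_fix.1 ha))
    exact mem_stab.1 (this g.2)
  rw [e] at h
  exact h

omit [Finite E] in
/-- The fixed points of `u ≠ 1` have order `p ^ k` with `k < n`. -/
theorem Tr.card_fix {p : ℕ} [hp : Fact p.Prime] (h : Tr p φ) {n : ℕ} (hA : Nat.card A = p ^ n)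
    {u : E} (hu : u ≠ 1) : ∃ k < n, Nat.card (fix φ u) = p ^ k := by
  have hd := (fix φ u).card_subgroup_dvd_card
  rw [hA] at hd
  obtain ⟨k, hk, e⟩ := (Nat.dvd_prime_pow hp.out).1 hd
  refine ⟨k, lt_of_le_of_ne hk fun hkn => hu (h.inj ?_), e⟩
  have : fix φ u = ⊤ := eq_top_of_card_eq _ (by rw [e, hA, hkn])
  rw [map_one]
  ext a
  exact mem_fix.1 (this ▸ mem_top a : a ∈ fix φ u)

/-- If `s² ∤ |E|`, an element of order `s` is `CG`. -/
theorem cg_of_not_sq {s : ℕ} (hs : s.Prime) (h : ¬ s ^ 2 ∣ Nat.card E) {y : E}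
    (hy : orderOf y = s) : CG y := by
  have := Fact.mk hs
  intro z hz
  by_cases hd : s ∣ orderOf z
  · refine ⟨z, ?_, mem_zpowers z⟩
    set u := z ^ (orderOf z / s) with hu
    have hou : orderOf u = s := orderOf_pow_orderOf_div (orderOf_pos z).ne' hd
    have hc : Commute y u := Commute.pow_right hz _
    have hP : ∀ v : E, orderOf v = s → IsPGroup s (zpowers v) := fun v hv =>
      IsPGroup.of_card (n := 1) (by rw [Nat.card_zpowers, hv, pow_one])
    have hN : zpowers y ≤ normalizer (zpowers u : Set E) := by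
      refine le_trans ?_ (centralizer_le_normalizer _)
      rw [zpowers_le, mem_centralizer_iff]
      rintro _ ⟨k, rfl⟩
      exact (hc.zpow_right k).symm.eq
    obtain ⟨k, hk⟩ := IsPGroup.iff_card.1 ((hP y hy).to_sup_of_normal_right' (hP u hou) hN)
    have hk1 : k ≤ 1 := by
      by_contra hk2
      refine h ((pow_dvd_pow s (by omega : 2 ≤ k)).trans ?_)
      rw [← hk]
      exact card_subgroup_dvd_card _
    have : zpowers u = zpowers y ⊔ zpowers u := by
      refine eq_of_le_of_card_ge le_sup_right ?_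
      rw [hk, Nat.card_zpowers, hou]
      calc s ^ k ≤ s ^ 1 := Nat.pow_le_pow_right hs.pos hk1
        _ = s := pow_one s
    have h1 : y ∈ zpowers u := by
      rw [this]
      exact mem_sup_left (mem_zpowers y)
    exact (zpowers_le.2 (pow_mem (mem_zpowers z) _) : zpowers u ≤ zpowers z) h1
  · have hco : (orderOf y).Coprime (orderOf z) := by
      rw [hy]
      exact (Nat.Prime.coprime_iff_not_dvd hs).2 hd
    have hc : Commute y z := hz
    have key : ∀ a b : E, Commute a b → (orderOf a).Coprime (orderOf b) → a ∈ zpowers (a * b) := by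
      intro a b hab hco
      have : (a * b) ^ orderOf b = a ^ orderOf b := by
        rw [hab.mul_pow, pow_orderOf_eq_one, mul_one]
      have h2 : a ∈ zpowers (a ^ orderOf b) := mem_zpowers_pow_iff.2 hco.symm
      rw [← this] at h2
      exact (zpowers_le.2 (pow_mem (mem_zpowers _) _) : zpowers _ ≤ zpowers (a * b)) h2
    refine ⟨y * z, key y z hc hco, ?_⟩
    rw [hc.eq]
    exact key z y hc.symm hco.symm

theorem Tr.six {p : ℕ} [Fact p.Prime] (h : Tr p φ) (hA : Nat.card A = p ^ 6) {s : ℕ}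
    (hs : s.Prime) (h1 : s ∣ p ^ 6 - 1) (h2 : ¬ s ^ 2 ∣ p ^ 6 - 1)
    (h3 : ∀ j, 1 ≤ j → j < 6 → s ∣ p ^ j - 1 → j = 3) : ∃ y : E, orderOf y = s ∧ CG y := by
  classical
  have hp : p.Prime := Fact.out
  have := Fact.mk hs
  have hp1 : ∀ k, 1 ≤ p ^ k := fun k => Nat.one_le_pow _ _ hp.pos
  have : Nontrivial A := by
    rw [← Finite.one_lt_card_iff_nontrivial, hA]
    exact Nat.one_lt_pow (by norm_num) hp.one_lt
  obtain ⟨a, ha⟩ := exists_ne (1 : A)
  have hE := h.card_eq ha
  rw [hA] at hE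
  have hst : ¬ s ^ 2 ∣ Nat.card (stab φ a) := by
    intro hd
    obtain ⟨U, hU⟩ := Sylow.exists_subgroup_card_pow_prime s hd
    have hUp : IsPGroup s U := IsPGroup.of_card hU
    let ψ : U →* E := (stab φ a).subtype.comp U.subtype
    have hψ : Function.Injective ψ := (stab φ a).subtype_injective.comp U.subtype_injective
    let : MulAction U A := MulAction.compHom A (φ.comp ψ)
    have hfix : ∀ u : U, u ≠ 1 → Nat.card (fix φ (ψ u)) = p ^ 3 := by
      intro u hu
      have hu' : ψ u ≠ 1 := fun e => hu (hψ (by rw [e, map_one]))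
      obtain ⟨k, hk, e⟩ := h.card_fix hA hu'
      have hz : IsPGroup s (zpowers (ψ u)) := by
        rw [← MonoidHom.map_zpowers]
        exact (hUp.to_subgroup _).map ψ
      have hm := modEq_fix' (φ := φ) hz
      rw [hA, e] at hm
      have hk0 : 1 ≤ k := by
        by_contra h0
        have : k = 0 := by omega
        rw [this, pow_zero, card_eq_one] at e
        have : a ∈ fix φ (ψ u) := mem_fix.2 (mem_stab.1 u.1.2)
        rw [e, mem_bot] at this
        exact ha this
      have h6 : 1 ≡ p ^ 6 [MOD s] := (Nat.modEq_iff_dvd' (hp1 6)).2 h1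
      rw [e, h3 k hk0 hk ((Nat.modEq_iff_dvd' (hp1 k)).1 (h6.trans hm))]
    have := Fintype.ofFinite U
    have := Fintype.ofFinite A
    have := Fintype.ofFinite (Quotient (MulAction.orbitRel U A))
    have hB := MulAction.sum_card_fixedBy_eq_card_orbits_mul_card_group U A
    have hc : ∀ u : U, Fintype.card (MulAction.fixedBy A u) = Nat.card (fix φ (ψ u)) := fun u => by
      rw [← Nat.card_eq_fintype_card]
      rfl
    simp only [hc] at hB
    rw [← Finset.add_sum_erase _ _ (Finset.mem_univ (1 : U)),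
      Finset.sum_congr rfl (fun u hu => hfix u (Finset.ne_of_mem_erase hu)), Finset.sum_const,
      Finset.card_erase_of_mem (Finset.mem_univ _), Finset.card_univ, ← Nat.card_eq_fintype_card (α := U),
      hU, smul_eq_mul] at hB
    have h1' : Nat.card (fix φ (ψ 1)) = p ^ 6 := by
      rw [← hA, map_one]
      have : fix φ (1 : E) = ⊤ := by
        rw [eq_top_iff]
        intro b _
        rw [mem_fix, map_one]
        rfl
      rw [this, card_top]
    rw [h1'] at hB
    have hs1 : 1 ≤ s ^ 2 := Nat.one_le_pow _ _ hs.pos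
    have h7 : s ^ 2 ∣ p ^ 3 * (p ^ 3 - 1) := by
      have e1 : p ^ 3 * (p ^ 3 - 1) + s ^ 2 * p ^ 3 = p ^ 6 + (s ^ 2 - 1) * p ^ 3 := by
        have := hp1 3
        zify [this, hs1]
        ring
      rw [Nat.dvd_add_iff_left (dvd_mul_right (s ^ 2) (p ^ 3)), e1, hB]
      exact dvd_mul_left _ _
    have hsp : s.Coprime p := by
      rw [Nat.Prime.coprime_iff_not_dvd hs]
      intro hsp
      have : s ∣ p ^ 6 := hsp.trans (dvd_pow_self p (by norm_num))
      have h8 := (Nat.dvd_sub_iff_right (hp1 6) this).1 h1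
      exact hs.one_lt.ne' (Nat.dvd_one.1 h8)
    have h8 := (Nat.Coprime.pow 2 3 hsp).dvd_of_dvd_mul_left h7
    refine h2 (h8.trans ⟨p ^ 3 + 1, ?_⟩)
    have := hp1 3
    have := hp1 6
    zify [*]
    ring
  have hst1 : ¬ s ∣ Nat.card (stab φ a) := by
    obtain ⟨t, ht⟩ := h.sq a ha
    rw [ht] at hst ⊢
    intro hd
    have : s ∣ t := by
      rcases (Nat.Prime.dvd_mul hs).1 hd with h' | h' <;> exact h'
    exact hst (by rw [pow_two]; exact mul_dvd_mul this this)
  have hE2 : ¬ s ^ 2 ∣ Nat.card E := by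
    rw [hE]
    intro hd
    exact h2 ((Nat.Coprime.pow_left 2 ((Nat.Prime.coprime_iff_not_dvd hs).2 hst1)).dvd_of_dvd_mul_right hd)
  obtain ⟨y, hy⟩ := exists_prime_orderOf_dvd_card' (G := E) s (by rw [hE]; exact h1.mul_right _)
  exact ⟨y, hy, cg_of_not_sq hs hE2 hy⟩

theorem Tr.four (h : Tr 3 φ) (hA : Nat.card A = 3 ^ 4) : False := by
  have : Fact (Nat.Prime 3) := ⟨Nat.prime_three⟩
  obtain ⟨⟨x, hx⟩, hz⟩ := h.zs (r := 5) hA (by norm_num) (by norm_num) (by norm_num) (by
    intro i h1 h2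
    interval_cases i <;> norm_num)
  have : Nontrivial A := by
    rw [← Finite.one_lt_card_iff_nontrivial, hA]
    norm_num
  obtain ⟨a, ha⟩ := exists_ne (1 : A)
  have hE := h.card_eq ha
  rw [hA] at hE
  obtain ⟨S⟩ : Nonempty (Sylow 2 E) := inferInstance
  have hS : (S : Subgroup E) ≠ ⊥ := S.ne_bot_of_dvd_card (by rw [hE]; exact Dvd.dvd.mul_right (by norm_num) _)
  have : Nontrivial S := (nontrivial_iff_ne_bot _).2 hS
  have := S.isPGroup'.center_nontrivial
  obtain ⟨k, hk, e⟩ := (S.isPGroup'.to_subgroup (center S)).nontrivial_iff_card.1 inferInstance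
  obtain ⟨c, hc⟩ := exists_prime_orderOf_dvd_card' (G := center S) 2
    (by rw [e]; exact dvd_pow_self 2 hk.ne')
  set z : E := (c.1 : E) with hz'
  have hoz : orderOf z = 2 := by rw [hz', orderOf_coe, orderOf_coe, hc]
  have hz1 : z ≠ 1 := by
    rintro h0
    rw [h0, orderOf_one] at hoz
    exact absurd hoz (by norm_num)
  have hz2 : z * z = 1 := by rw [← pow_two, ← hoz, pow_orderOf_eq_one]
  have h16 := h.orb S (fix φ z) (k := 4) (fun e he b hb => by
    have h1 : (⟨e, he⟩ : S) * c.1 = c.1 * ⟨e, he⟩ := mem_center_iff.1 c.2 _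
    have h2 : e * z = z * e := congrArg Subtype.val h1
    rw [mem_fix] at hb ⊢
    rw [← MulAut.mul_apply, ← map_mul, ← h2, map_mul, MulAut.mul_apply, hb]) (by rw [hA]; norm_num)
  obtain ⟨j, hj, e1⟩ := h.card_fix hA hz1
  rw [e1] at h16
  have hj0 : j = 0 := by
    interval_cases j <;> simp_all
  rw [hj0, pow_zero, card_eq_one] at e1
  have hinv : ∀ b : A, φ z b = b⁻¹ := fun b => by
    have : b * φ z b ∈ fix φ z := by
      rw [mem_fix, map_mul, ← MulAut.mul_apply, ← map_mul, hz2, map_one, MulAut.one_apply, mul_comm]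
    rw [e1, mem_bot] at this
    exact eq_inv_of_mul_eq_one_right this
  have hc2 : x * z = z * x := h.inj (by
    ext b
    rw [map_mul, map_mul, MulAut.mul_apply, MulAut.mul_apply, hinv, hinv, map_inv])
  have := orderOf_dvd_of_mem_zpowers ((hz x hx).2 z hc2)
  rw [hoz, hx] at this
  exact absurd this (by norm_num)

theorem Tr.card_le {p : ℕ} [Fact p.Prime] (h : Tr p φ) : Nat.card A ≤ 3 := by
  have hp : p.Prime := Fact.out
  obtain ⟨n, hn⟩ := IsPGroup.iff_card.1 h.pA
  by_cases h2 : n ≤ 2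
  · exact h.small (hn ▸ pow_dvd_pow p h2)
  exfalso
  have ne1 : ∀ {x : E} {r : ℕ}, orderOf x = r → r ≠ 1 → x ≠ 1 := fun hx hr h0 =>
    hr (by rw [← hx, h0, orderOf_one])
  have six' : ∀ s : ℕ, n = 6 → s.Prime → s ≠ 7 → s ∣ p ^ 6 - 1 → ¬ s ^ 2 ∣ p ^ 6 - 1 →
      (∀ j, 1 ≤ j → j < 6 → s ∣ p ^ j - 1 → j = 3) → 7 ∣ p ^ 6 - 1 →
      (∀ i, 1 ≤ i → i < 6 → ¬ 7 ∣ p ^ i - 1) → False := by
    intro s h6 hs h7 a1 a2 a3 a4 a5
    subst h6
    obtain ⟨y, hy, hy'⟩ := h.six hn hs a1 a2 a3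
    obtain ⟨⟨x, hx⟩, hz⟩ := h.zs (r := 7) hn (by norm_num) (by norm_num) a4 a5
    obtain ⟨g, hg⟩ := isConj_iff.1
      (h.good x y (ne1 hx (by norm_num)) (ne1 hy hs.one_lt.ne') (hz x hx).1 hy')
    have : orderOf y = orderOf x := by
      rw [← hg]
      exact (MulAut.conj g).orderOf_eq x
    exact h7 (by rw [← hy, this, hx])
  by_cases hp2 : p = 2
  · subst hp2
    by_cases h6 : n = 6
    · subst h6
      obtain ⟨y, hy, hy'⟩ := h.six (s := 7) hn (by norm_num) (by norm_num) (by norm_num) (by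
        intro j h1 h2
        interval_cases j <;> norm_num)
      exact h.two (ne1 hy (by norm_num)) hy'
    · obtain ⟨r, hr, e1, e2⟩ := Spec.zsigmondy (a := 2) (n := n) (by norm_num) (by omega)
        (fun h' => h6 h'.2) (fun h' => by omega)
      obtain ⟨⟨x, hx⟩, hz⟩ := h.zs hn (by omega) hr e1 (fun i h1 => e2 i (by omega))
      exact h.two (ne1 hx hr.one_lt.ne') (hz x hx).1
  by_cases h34 : p = 3 ∧ n = 4
  · obtain ⟨rfl, rfl⟩ := h34
    exact h.four hn
  by_cases h36 : p = 3 ∧ n = 6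
  · obtain ⟨rfl, h6⟩ := h36
    refine six' 13 h6 (by norm_num) (by norm_num) (by norm_num) (by norm_num) ?_ (by norm_num) ?_ <;>
    · intro j h1 h2
      interval_cases j <;> norm_num
  by_cases h56 : p = 5 ∧ n = 6
  · obtain ⟨rfl, h6⟩ := h56
    refine six' 31 h6 (by norm_num) (by norm_num) (by norm_num) (by norm_num) ?_ (by norm_num) ?_ <;>
    · intro j h1 h2
      interval_cases j <;> norm_num
  obtain ⟨r, hr, e1, e2, e3⟩ := Spec.exists_large_zsig (q := p) (n := n) hp.two_le (by omega)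
    (fun h' => hp2 h'.1) (by tauto) h56
  rcases e3 with e3 | e3
  · have := h.le_succ hn (by omega) hr e1 e2
    omega
  · exact h.not_sq hn (by omega) hr e1 e2 e3

end CfsgLib.K3B
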