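import Mathlib
import Cfsg.Agent.Lib.K3B.Defs
import Cfsg.Agent.Lib.ChDeg.Cliff
import Cfsg.Agent.Lib.CharDeep.Gallagher
import Cfsg.Agent.Lib.CharDeep.ProjExt

/-! K3B package GC: good classes give characters over an invariant character.

For `x ∈ s` pick `g` with `π g = x`, `U = (zpowers x).comap π ≥ N`, `U / N` cyclic, and an extension
`θ̂ ∈ Irr U` of `θ` (`exists_irr_extension_of_isCyclic`, cf. the proof of `FullRam.mult_one`). Put
`h u = if π u = x then θ̂ u else 0` (a class function of `U`, as `π U` is abelian) and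
`f_x = indFun U h`.
(1) `f_x` is in the span of the characters over `θ`: the indicator of `x` on the abelian group
`U ⧸ N` is a class function, `= ∑ c_β β` (`classFun_eq_sum`), so `h = ∑ c_β (β ∘ mk) θ̂`, each
`(β ∘ mk) θ̂` is irreducible (`gallagher_isIrr`) and over `θ`; if `ψ ∈ Irr T` is not over `θ` then
`⟨ψ|U, (β ∘ mk) θ̂⟩ = 0` (`inner_res_ne_zero_trans`), so `⟨f_x, ψ⟩ = 0` by Frobenius reciprocity, and
`f_x = ∑ ⟨f_x, ψ⟩ ψ`.
(2) `f_x t = 0` unless `π t` is conjugate to `x`.
(3) `f_x ≠ 0`: `h ≠ 0`, say `h u₀ ≠ 0` (`π u₀ = x`): else `∑ c_β (β ∘ mk) θ̂ = 0` with the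
`(β ∘ mk) θ̂` distinct irreducibles (`gallagher_inj`), so all `c_β = 0` (or use
`McKay.sum_conj_mul_of_irr`: `∑_{n} θ̂ (n b n⁻¹ b⁻¹) = |N| θ̂ b θ̂ b⁻¹ / θ̂ 1`-type identities).
If `t u₀ t⁻¹` lies over `x` then `π t` commutes with `x`; `CG x` gives `w`; `W = (zpowers w).comap π`
contains `U` and `t`, `θ̃ ∈ Irr W` extends `θ`, `θ̂ = β θ̃|U` (`gallagher_surj`, `β` trivial on `N`, so
constant on `N`-cosets), hence `θ̂ (t u₀ t⁻¹) = θ̂ u₀`. So `f_x u₀ = (#such t / |U|) θ̂ u₀ ≠ 0`.
By (2), (3) the `f_x` are linearly independent; by (1) they lie in the span of a family indexed by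
the subtype, so `|s| ≤ finrank ≤ Nat.card` (`finrank_span_le_card`, `LinearIndependent.fintype_card_le_finrank`). -/

set_option autoImplicit false

namespace CfsgLib.K3B

open Cfsg Subgroup CfsgLib.Char CfsgLib.CharDeep

namespace GC

variable {T E : Type*} [Group T] [Finite T] [Group E] {π : T →* E} {N : Subgroup T} [N.Normal]
  {θ : N → ℂ}

omit [Finite T] [N.Normal] in
theorem le_U (hN : π.ker = N) (w : E) : N ≤ (zpowers w).comap π := fun n hn => by
  rw [mem_comap, MonoidHom.mem_ker.1 (hN.ge hn)]; exact one_mem _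

/-- `θ` extends to the preimage of a cyclic group. -/
theorem ext_cyc (hN : π.ker = N) (hθ : IsIrrCharacter N θ) (hinv : ∀ g : T, conjChar N g θ = θ)
    (w : E) : ∃ χ : (zpowers w).comap π → ℂ, IsIrrCharacter _ χ ∧
      ∀ n : N, χ ⟨n, le_U hN w n.2⟩ = θ n := by
  have := Fintype.ofFinite ((zpowers w).comap π)
  let ρ := (π.comp ((zpowers w).comap π).subtype).codRestrict (zpowers w) fun u => u.2
  have hρ : ρ.ker = N.subgroupOf ((zpowers w).comap π) := by
    ext u; rw [← hN]; exact Subtype.ext_iff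
  have : IsCyclic (_ ⧸ N.subgroupOf ((zpowers w).comap π)) :=
    isCyclic_of_surjective _ ((QuotientGroup.quotientMulEquivOfEq hρ).symm.trans
      (QuotientGroup.quotientKerEquivRange _)).symm.surjective
  let j := subgroupOfEquivOfLe (le_U hN w)
  obtain ⟨χ, h0, h2⟩ := exists_irr_extension_of_isCyclic (N.subgroupOf _)
    (isIrr_comp_mulEquiv j hθ) fun g n => congrFun (hinv g) (j n)
  exact ⟨χ, h0, fun n => h2 ⟨⟨n, le_U hN w n.2⟩, n.2⟩⟩

theorem exists_f [Fintype N] [Fintype T] (hπ : Function.Surjective π) (hN : π.ker = N)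
    (hθ : IsIrrCharacter N θ) (hinv : ∀ g : T, conjChar N g θ = θ) {x : E} (hx : CG x) :
    ∃ f : T → ℂ, IsClassFunction T f ∧
      (∀ ψ, IsIrrCharacter T ψ → classInner (fun n : N => ψ n) θ = 0 → classInner f ψ = 0) ∧
      (∀ t, ¬ IsConj x (π t) → f t = 0) ∧ ∃ u, π u = x ∧ f u ≠ 0 := by
  classical
  have := Finite.of_surjective π hπ
  let U := (zpowers x).comap π
  have hU : N ≤ U := le_U hN x
  obtain ⟨χ, hχ, eχ⟩ : ∃ χ : U → ℂ, IsIrrCharacter _ χ ∧ ∀ n : N, χ ⟨n, hU n.2⟩ = θ n :=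
    ext_cyc hN hθ hinv x
  have := Fintype.ofFinite U
  have := Fintype.ofFinite (N.subgroupOf U)
  have := Fintype.ofFinite (zpowers x)
  let j := subgroupOfEquivOfLe hU
  have irr : ∀ {χ' : U → ℂ}, (∀ n : N, χ' ⟨n, hU n.2⟩ = θ n) →
      (fun n : N.subgroupOf U => χ' n) = fun n => θ (j n) := fun h => funext fun n => h (j n)
  have hj := isIrr_comp_mulEquiv j hθ
  have cχ := isCharacter_of_isIrr hχ
  let h : U → ℂ := fun u => if π u = x then χ u else 0
  refine ⟨indFun U h, isClassFunction_indFun U h, fun ψ hψ h0 => ?_, fun t ht => ?_, ?_⟩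
  · let ρ := (π.comp U.subtype).codRestrict (zpowers x) fun u => u.2
    have hρ : Function.Surjective ρ := fun y => by
      obtain ⟨t, ht⟩ := hπ y
      exact ⟨⟨t, mem_comap.2 (ht ▸ y.2)⟩, Subtype.ext ht⟩
    let δ : zpowers x → ℂ := fun y => if (y : E) = x then 1 else 0
    have e := classFun_eq_sum (f := δ) fun g k => by rw [mul_comm' k, mul_inv_cancel_right]
    have e1 : h = ∑ β : IrrCharacter (zpowers x),
        classInner δ β • ((fun u => (β : zpowers x → ℂ) (ρ u)) * χ) := by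
      ext u
      have := congrFun e (ρ u)
      simp only [Finset.sum_apply, Pi.smul_apply, Pi.mul_apply, smul_eq_mul] at this ⊢
      simp only [← mul_assoc, ← Finset.sum_mul, ← this]
      exact (boole_mul _ _).symm
    rw [classInner_indFun_left U h (isClassFunction_of_isIrr hψ), e1, classInner_sum_left]
    refine Finset.sum_eq_zero fun β _ => ?_
    have b1 : ∀ n : N, ρ ⟨n, hU n.2⟩ = ρ 1 := fun n =>
      (Subtype.ext (MonoidHom.mem_ker.1 (hN.ge n.2))).trans (map_one ρ).symm
    have i := gallagher_isIrr (N.subgroupOf U) cχ (irr eχ ▸ hj)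
      (isIrr_comp_of_surjective ρ hρ β.2) fun n hn => congrArg β.1 (b1 ⟨n, hn⟩)
    rw [classInner_smul_left]
    refine mul_eq_zero_of_right _ (classInner_eq_zero_symm ?_)
    by_contra h1
    refine ChDeg.inner_res_ne_zero_trans hU (isCharacter_of_isIrr hψ) i (isCharacter_of_isIrr hθ)
      h1 ?_ h0
    rw [show (fun n : N => ((fun u => (β : zpowers x → ℂ) (ρ u)) * χ) ⟨n, hU n.2⟩) =
      (β : zpowers x → ℂ) 1 • θ from funext fun n => by
        simp only [Pi.mul_apply, b1, eχ, map_one, Pi.smul_apply, smul_eq_mul],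
      classInner_smul_left, classInner_irr_self hθ, mul_one]
    exact irr_one_ne_zero β.2
  · refine indFun_eq_zero_of_forall U h fun g hg => if_neg fun e => ht (isConj_iff.2 ⟨π g⁻¹, ?_⟩)
    rw [← show π (g * t * g⁻¹) = x from e]
    simp [mul_assoc]
  · obtain ⟨g, hg⟩ := hπ x
    obtain ⟨u, hu, h0⟩ : ∃ u : U, π u = x ∧ χ u ≠ 0 := by
      by_contra! h0
      have := sum_coset_mul_conj (N.subgroupOf U) cχ (irr eχ ▸ hj)
        ⟨g, mem_comap.2 (hg ▸ mem_zpowers x)⟩
      rw [Finset.sum_eq_zero fun n _ => by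
        rw [h0 _ (by rw [coe_mul, map_mul, show π n = 1 from hN.ge n.2, one_mul, hg]),
          zero_mul]] at this
      exact Nat.cast_ne_zero.2 Nat.card_pos.ne' this.symm
    have key : ∀ t : T, extendByZero U h (t * u * t⁻¹) = if π t * x = x * π t then χ u else 0 :=
      fun t => by
        have e0 : π (t * u * t⁻¹) = x ↔ π t * x = x * π t := by
          rw [map_mul, map_mul, map_inv, hu, mul_inv_eq_iff_eq_mul]
        rw [extendByZero_eq_dite]
        split_ifs with a b b
        · refine (if_pos (e0.2 b)).trans ?_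
          obtain ⟨w, w1, w2⟩ := hx _ b.symm
          obtain ⟨χ', hχ', eχ'⟩ := ext_cyc hN hθ hinv w
          have le : U ≤ (zpowers w).comap π := comap_mono (zpowers_le.2 w1)
          have r := irr (χ' := fun u => χ' ⟨u, le u.2⟩) eχ'
          obtain ⟨β, hβ, b1, b2⟩ := gallagher_surj (N.subgroupOf U)
            (isCharacter_res_le le (isCharacter_of_isIrr hχ')) (r ▸ hj) hχ
            (by rw [r, irr eχ, classInner_irr_self hj]; exact one_ne_zero)
          rw [b2, Pi.mul_apply, Pi.mul_apply, ← isClassFunction_of_isIrr hχ' ⟨u, le u.2⟩ ⟨t, w2⟩,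
            ← char_mul_of_eq_one (isCharacter_of_isIrr hβ) (b1 (⟨_, a⟩ * u⁻¹) (hN.le
              (show π (t * u * t⁻¹ * (u : T)⁻¹) = 1 by
                rw [map_mul, map_inv, e0.2 b, hu, mul_inv_cancel]))) u, inv_mul_cancel_right]
          rfl
        · exact if_neg fun e => b (e0.1 e)
        · exact (a (mem_comap.2 (e0.2 b ▸ mem_zpowers x))).elim
        · rfl
    refine ⟨u, hu, ?_⟩
    rw [indFun_apply', Finset.sum_congr rfl fun t _ => key t, ← Finset.sum_filter,
      Finset.sum_const, nsmul_eq_mul]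
    exact mul_ne_zero (inv_ne_zero (Nat.cast_ne_zero.2 Nat.card_pos.ne')) (mul_ne_zero
      (Nat.cast_ne_zero.2 (Finset.card_ne_zero.2 ⟨1, by simp⟩)) h0)

end GC

theorem card_good_le {T E : Type*} [Group T] [Finite T] [Group E] (π : T →* E)
    (hπ : Function.Surjective π) (N : Subgroup T) [N.Normal] [Fintype N] (hN : π.ker = N)
    {θ : N → ℂ} (hθ : IsIrrCharacter N θ) (hinv : ∀ g : T, conjChar N g θ = θ)
    (s : Finset E) (h1 : ∀ x ∈ s, CG x) (h2 : ∀ x ∈ s, ∀ y ∈ s, IsConj x y → x = y) :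
    s.card ≤ Nat.card {ψ : IrrCharacter T // classInner (fun n : N => (ψ : T → ℂ) n) θ ≠ 0} := by
  classical
  have := Fintype.ofFinite T
  choose f f1 f2 f3 u f4 f5 using fun x : s => GC.exists_f hπ hN hθ hinv (h1 x x.2)
  have li : LinearIndependent ℂ f := Fintype.linearIndependent_iff.2 fun c hc y => by
    have := congrFun hc (u y)
    rw [Finset.sum_apply, Finset.sum_eq_single y (fun x _ e => by
      rw [Pi.smul_apply, f3 x _ fun h => e (Subtype.ext (h2 _ x.2 _ y.2 (f4 y ▸ h))), smul_zero])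
      (by simp)] at this
    exact (mul_eq_zero.1 this).resolve_right (f5 y)
  have := linearIndependent_le_span_aux' f li (Set.range
    fun ψ : {ψ : IrrCharacter T // classInner (fun n : N => (ψ : T → ℂ) n) θ ≠ 0} => ψ.1.1) (by
      rintro _ ⟨x, rfl⟩
      rw [classFun_eq_sum (f1 x)]
      refine Submodule.sum_mem _ fun ψ _ => ?_
      by_cases h : classInner (fun n : N => (ψ : T → ℂ) n) θ = 0
      · rw [f2 x _ ψ.2 h, zero_smul]; exact zero_mem _
      · exact Submodule.smul_mem _ _ (Submodule.subset_span ⟨⟨ψ, h⟩, rfl⟩))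
  rw [Fintype.card_coe] at this
  rw [Nat.card_eq_fintype_card]
  exact this.trans (Fintype.card_range_le _)

end CfsgLib.K3B
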