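import Mathlib
import Cfsg.Agent.Lib.FullRam.Basic
import Cfsg.Agent.Lib.Cover.Basic
import Cfsg.Agent.Lib.K3B.Fin
import Cfsg.Agent.Lib.K3B.Good

/-! K3B: Clifford theory over a family of characters indexed by the dual of `V`. -/

set_option autoImplicit false

namespace CfsgLib.K3B

open Cfsg Subgroup CfsgLib.Char CfsgLib.ChDeg
open scoped IsMulCommutative

/-- A unique character over an invariant character is fully ramified. -/
theorem exists_sq_of_unique {G : Type*} [Group G] [Fintype G] (N : Subgroup G) [N.Normal]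
    [Fintype N] {θ : N → ℂ} (hθ : IsIrrCharacter N θ) (hinv : ∀ g : G, conjChar N g θ = θ)
    (hu : ∀ ψ ψ' : G → ℂ, IsIrrCharacter G ψ → IsIrrCharacter G ψ' →
      classInner (fun n : N => ψ n) θ ≠ 0 → classInner (fun n : N => ψ' n) θ ≠ 0 → ψ = ψ') :
    ∃ (ψ : G → ℂ) (e : ℕ), IsIrrCharacter G ψ ∧ classInner (fun n : N => ψ n) θ = e ∧ e ≠ 0 ∧
      e ^ 2 = N.index := by
  classical
  obtain ⟨ψ, hψ⟩ := Cover.exists_over N ⟨θ, hθ⟩
  obtain ⟨e, he0, he, hd⟩ := exists_deg_clifford N ψ.2 hθ hψ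
  refine ⟨ψ, e, ψ.2, he, he0.ne', ?_⟩
  have hI : inertia N θ = ⊤ := eq_top_iff.2 fun g _ => hinv g
  rw [hI, index_top, mul_one] at hd
  have h1 := classFun_eq_sum (isClassFunction_of_isCharacter
    (isCharacter_indFun N (isCharacter_of_isIrr hθ)))
  have h2 : ∀ χ : IrrCharacter G, classInner (indFun N θ) χ = classInner (fun n : N => (χ : G → ℂ) n) θ :=
    fun χ => by
      rw [classInner_indFun_left N θ (irr_isClassFunction χ), classInner_comm_char
        (isCharacter_of_isIrr hθ) (isCharacter_restrict N (irr_isCharacter χ))]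
  rw [Finset.sum_eq_single ψ (fun χ _ hχ => by
    rw [h2, of_not_not fun h => hχ (Subtype.ext (hu _ _ χ.2 ψ.2 h hψ)), zero_smul])
    (fun h => (h (Finset.mem_univ _)).elim), h2, he] at h1
  have h3 := congrFun h1 1
  rw [indFun_one, Pi.smul_apply, smul_eq_mul, ← deg_cast (irr_isCharacter ψ), hd,
    ← deg_cast (isCharacter_of_isIrr hθ)] at h3
  have h4 : N.index * charDegree θ = e ^ 2 * charDegree θ := by
    rw [pow_two, mul_assoc]; exact_mod_cast h3
  exact (Nat.eq_of_mul_eq_mul_right (deg_pos hθ) h4).symm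

/-- The action of `X` on the dual of the normal subgroup `V`. -/
def dualAct {X : Type*} [Group X] (V : Subgroup X) [V.Normal] : X →* MulAut (V →* ℂˣ) :=
  MonoidHom.mk' (fun g =>
    { toFun := fun μ => μ.comp (MulAut.conjNormal g⁻¹ : MulAut V).toMonoidHom
      invFun := fun μ => μ.comp (MulAut.conjNormal g : MulAut V).toMonoidHom
      left_inv := fun μ => by ext v; simp
      right_inv := fun μ => by ext v; simp
      map_mul' := fun μ ν => rfl }) fun a b => by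
    ext μ v
    simp

theorem dualAct_apply {X : Type*} [Group X] (V : Subgroup X) [V.Normal] (g : X) (μ : V →* ℂˣ)
    (v : V) : dualAct V g μ v = μ (MulAut.conjNormal g⁻¹ v) := rfl

theorem card_le_of_family {X : Type*} [Group X] [Finite X] {p : ℕ} [Fact p.Prime]
    {V L : Subgroup X} [V.Normal] [L.Normal] [Fintype L] (hV : IsPGroup p V)
    (hc : IsMulCommutative V) (hL : ∀ g, g ∈ L ↔ ∀ v ∈ V, v * g = g * v) (hVL : V ≤ L)
    (η : (V →* ℂˣ) → L → ℂ) (e1 : ∀ μ, IsIrrCharacter L (η μ))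
    (e2 : ∀ μ (v : V), η μ ⟨v, hVL v.2⟩ = μ v * η μ 1)
    (e3 : ∀ g ∈ inertia L (η 1), ∀ μ, conjChar L g (η μ) = η (dualAct V g⁻¹ μ))
    (e4 : ∀ g μ ν, conjChar L g (η μ) = η ν → g ∈ inertia L (η 1))
    (e5 : ¬ p ∣ L.relIndex (inertia L (η 1))) {B : Set (IrrCharacter X)}
    (hB : ∀ μ (χ : IrrCharacter X), classInner (fun n : L => (χ : X → ℂ) n) (η μ) ≠ 0 → χ ∈ B)
    (h3 : Nat.card B ≤ 3) {χ₁ χ₂ : IrrCharacter X} (h12 : χ₁ ≠ χ₂) (b1 : χ₁ ∈ B) (b2 : χ₂ ∈ B)
    (k1 : ∀ v ∈ V, (χ₁ : X → ℂ) v = (χ₁ : X → ℂ) 1)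
    (k2 : ∀ v ∈ V, (χ₂ : X → ℂ) v = (χ₂ : X → ℂ) 1) : Nat.card V ≤ 3 := by
  classical
  have := Fintype.ofFinite X
  have : NeZero (Monoid.exponent V) := ⟨Monoid.exponent_ne_zero_of_finite⟩
  have hA : Nat.card (V →* ℂˣ) = Nat.card V :=
    CommGroup.card_monoidHom_of_hasEnoughRootsOfUnity V ℂ
  have : Finite (V →* ℂˣ) := Nat.finite_of_card_ne_zero (hA ▸ Nat.card_pos.ne')
  have hinj : ∀ μ ν, η μ = η ν → μ = ν := fun μ ν h => by
    ext v
    have h1 := e2 μ v
    rw [h, e2] at h1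
    exact (mul_right_cancel₀ (irr_one_ne_zero (e1 ν)) h1).symm
  have four : ∀ s : Finset (IrrCharacter X), (∀ χ ∈ s, χ ∈ B) → s.card ≤ 3 := fun s hs =>
    le_trans (by
      rw [← Nat.card_eq_finsetCard]
      exact Nat.card_le_card_of_injective (fun χ : s => (⟨χ, hs χ χ.2⟩ : B))
        fun a b h => Subtype.ext (congrArg (fun t : B => (t : IrrCharacter X)) h)) h3
  have hker : ∀ μ (χ : IrrCharacter X), classInner (fun n : L => (χ : X → ℂ) n) (η μ) ≠ 0 →
      (∀ v ∈ V, (χ : X → ℂ) v = (χ : X → ℂ) 1) → μ = 1 := fun μ χ h hk => by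
    ext v
    have h1 := (mem_cker (isCharacter_of_isIrr (e1 μ))).1 (cker_le_of_inner_ne_zero
      (isCharacter_restrict L (irr_isCharacter χ)) (e1 μ) h
      ((mem_cker (isCharacter_restrict L (irr_isCharacter χ)) (g := ⟨v, hVL v.2⟩)).2 (hk v v.2)))
    rw [e2] at h1
    simpa using mul_right_cancel₀ (irr_one_ne_zero (e1 μ)) (h1.trans (one_mul _).symm)
  have huniq : ∀ μ ν (χ ψ : IrrCharacter X), μ ≠ 1 → ν ≠ 1 →
      classInner (fun n : L => (χ : X → ℂ) n) (η μ) ≠ 0 →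
      classInner (fun n : L => (ψ : X → ℂ) n) (η ν) ≠ 0 → χ = ψ := fun μ ν χ ψ hμ hν h h' => by
    by_contra hne
    have a1 : χ ≠ χ₁ := fun e => hμ (hker μ χ h (e ▸ k1))
    have a2 : χ ≠ χ₂ := fun e => hμ (hker μ χ h (e ▸ k2))
    have a3 : ψ ≠ χ₁ := fun e => hν (hker ν ψ h' (e ▸ k1))
    have a4 : ψ ≠ χ₂ := fun e => hν (hker ν ψ h' (e ▸ k2))
    have := four {χ, ψ, χ₁, χ₂} (by
      simp only [Finset.mem_insert, Finset.mem_singleton]
      rintro _ (rfl | rfl | rfl | rfl)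
      exacts [hB _ _ h, hB _ _ h', b1, b2])
    rw [Finset.card_insert_of_notMem (by simp [hne, a1, a2]),
      Finset.card_insert_of_notMem (by simp [a3, a4]), Finset.card_pair h12] at this
    omega
  obtain ⟨T, hT⟩ : ∃ T, T = inertia L (η 1) := ⟨_, rfl⟩
  rw [← hT] at e3 e4 e5
  have hLT : L ≤ T := hT ▸ le_inertia L (isClassFunction_of_isIrr (e1 1))
  let ρ : T →* MulAut (V →* ℂˣ) := (dualAct V).comp T.subtype
  have hρ : ρ.rangeRestrict.ker = L.subgroupOf T := by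
    ext t
    rw [MonoidHom.ker_rangeRestrict, MonoidHom.mem_ker, mem_subgroupOf, hL]
    constructor
    · intro h v hv
      by_contra hne
      obtain ⟨μ, hμ⟩ := CommGroup.exists_apply_ne_one_of_hasEnoughRootsOfUnity V ℂ
        (a := (⟨v, hv⟩ : V)⁻¹ * MulAut.conjNormal (t : X)⁻¹ ⟨v, hv⟩) fun e => hne (by
          have := congrArg Subtype.val (inv_mul_eq_one.1 e)
          simp only [MulAut.conjNormal_apply, inv_inv] at this
          calc v * t = t * ((t : X)⁻¹ * v * t) := by group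
            _ = t * v := by rw [← this])
      refine hμ ?_
      rw [map_mul, map_inv, inv_mul_eq_one]
      exact (DFunLike.congr_fun (DFunLike.congr_fun h μ) ⟨v, hv⟩).symm
    · intro h
      ext μ v
      have : MulAut.conjNormal (t : X)⁻¹ v = v := Subtype.ext (by
        simp only [MulAut.conjNormal_apply, inv_inv]
        rw [mul_assoc, h v v.2, inv_mul_cancel_left])
      change ((μ (MulAut.conjNormal (t : X)⁻¹ v) : ℂˣ) : ℂ) = μ v
      rw [this]
  have hcE : Nat.card ρ.range = L.relIndex T := by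
    rw [relIndex, ← hρ, index_ker, MonoidHom.range_eq_top.2 ρ.rangeRestrict_surjective, card_top]
  -- stabilisers
  have hst : ∀ μ : V →* ℂˣ, μ ≠ 1 → ∃ e : ℕ, e ^ 2 = Nat.card (stab ρ.range.subtype μ) ∧
      (IsCyclic (stab ρ.range.subtype μ) → e = 1) := fun μ hμ => by
    obtain ⟨I, hI⟩ : ∃ I, I = inertia L (η μ) := ⟨_, rfl⟩
    have hLI : L ≤ I := hI ▸ le_inertia L (isClassFunction_of_isIrr (e1 μ))
    have hIT : I ≤ T := fun g hg => e4 g μ μ (hI ▸ hg :)
    have hmem : ∀ t : T, (t : X) ∈ I ↔ ρ t μ = μ := fun t => by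
      rw [← inv_mem_iff, hI, mem_inertia, e3 _ (inv_mem t.2), inv_inv]
      exact ⟨hinj _ _, congrArg η⟩
    let π : I →* stab ρ.range.subtype μ :=
      (ρ.rangeRestrict.comp (inclusion hIT)).codRestrict _ fun t => (hmem (inclusion hIT t)).1 t.2
    have hπ : π.ker = L.subgroupOf I :=
      (MonoidHom.ker_codRestrict _ _ _).trans (by rw [← MonoidHom.comap_ker, hρ]; rfl)
    have hπs : Function.Surjective π := by
      rintro ⟨⟨_, t, rfl⟩, ht⟩
      exact ⟨⟨t, (hmem t).2 ht⟩, rfl⟩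
    let j := subgroupOfEquivOfLe hLI
    have hj : ∀ ψ : I → ℂ, classInner (fun n : L.subgroupOf I => ψ n) (fun n => η μ (j n)) =
        classInner (fun n : L => ψ ⟨n, hLI n.2⟩) (η μ) := fun ψ =>
      classInner_comp_mulEquiv j (fun n : L => ψ ⟨n, hLI n.2⟩) (η μ)
    obtain ⟨ψ, e, hψ, he, he0, h2⟩ := exists_sq_of_unique (L.subgroupOf I)
      (isIrr_comp_mulEquiv j (e1 μ))
      (fun g => funext fun n => (mem_inertia' L).1 (hI.le g.2) (j n))
      fun ψ ψ' hψ hψ' h h' => by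
        rw [hj] at h h'
        refine clifford_corr_inj L I hLI (e1 μ) hI hψ hψ' h h' ?_
        exact congrArg Subtype.val (huniq μ μ ⟨_, isIrr_indFun_inertia L I hLI (e1 μ) hI hψ h⟩
          ⟨_, isIrr_indFun_inertia L I hLI (e1 μ) hI hψ' h'⟩ hμ hμ
          (inner_res_indFun_ne_zero hLI hψ (isCharacter_of_isIrr (e1 μ)) h)
          (inner_res_indFun_ne_zero hLI hψ' (isCharacter_of_isIrr (e1 μ)) h'))
    refine ⟨e, ?_, fun hcyc => ?_⟩
    · rw [h2, ← hπ, index_ker, MonoidHom.range_eq_top.2 hπs, card_top]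
    · have := FullRam.mult_one (L.subgroupOf I) π hπ hψ (isIrr_comp_mulEquiv j (e1 μ))
        (he ▸ Nat.cast_ne_zero.2 he0)
      rw [he] at this
      exact_mod_cast this
  rw [← hA]
  refine Tr.card_le (p := p) (φ := ρ.range.subtype)
    ⟨?_, hcE ▸ e5, subtype_injective _, fun μ ν hμ hν => ?_, fun μ hμ => ?_, fun μ hμ hcyc => ?_,
      fun x y hx hy cx cy => ?_⟩
  · obtain ⟨k, hk⟩ := hV.exists_card_eq
    exact IsPGroup.of_card (hA.trans hk)
  · obtain ⟨χ, hχ⟩ := Cover.exists_over L ⟨η μ, e1 μ⟩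
    obtain ⟨ψ, hψ⟩ := Cover.exists_over L ⟨η ν, e1 ν⟩
    obtain rfl := huniq μ ν χ ψ hμ hν hχ hψ
    obtain ⟨g, hg⟩ := clifford_conj L χ.2 (e1 μ) (e1 ν) hχ hψ
    have hgT := e4 g μ ν hg.symm
    rw [e3 g hgT] at hg
    exact ⟨⟨_, ⟨g⁻¹, inv_mem hgT⟩, rfl⟩, (hinj _ _ hg).symm⟩
  · obtain ⟨e, he, -⟩ := hst μ hμ
    exact ⟨e, by rw [← he, pow_two]⟩
  · obtain ⟨e, he, h1⟩ := hst μ hμ
    rw [h1 hcyc] at he
    exact card_eq_one.1 he.symm
  · by_contra hxy
    obtain ⟨μ, hμ⟩ : ∃ μ : V →* ℂˣ, μ ≠ 1 := by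
      by_contra h
      push Not at h
      exact hx (Subtype.ext (MulEquiv.ext fun μ => (h _).trans (h _).symm))
    obtain ⟨χ₀, hχ₀⟩ := Cover.exists_over L ⟨η μ, e1 μ⟩
    let j := subgroupOfEquivOfLe hLT
    have hj : ∀ ψ : T → ℂ, classInner (fun n : L.subgroupOf T => ψ n) (fun n => η 1 (j n)) =
        classInner (fun n : L => ψ ⟨n, hLT n.2⟩) (η 1) := fun ψ =>
      classInner_comp_mulEquiv j (fun n : L => ψ ⟨n, hLT n.2⟩) (η 1)
    have h1 := card_good_le ρ.rangeRestrict ρ.rangeRestrict_surjective (L.subgroupOf T) hρ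
      (isIrr_comp_mulEquiv j (e1 1))
      (fun g => funext fun n => (mem_inertia' L).1 (hT.le g.2) (j n)) {1, x, y}
      (by
        simp only [Finset.mem_insert, Finset.mem_singleton]
        rintro _ (rfl | rfl | rfl)
        exacts [CG.one, cx, cy])
      (by
        simp only [Finset.mem_insert, Finset.mem_singleton]
        rintro _ (rfl | rfl | rfl) _ (rfl | rfl | rfl) h
        exacts [rfl, (isConj_one_right.1 h).symm, (isConj_one_right.1 h).symm,
          isConj_one_left.1 h, rfl, (hxy h).elim, isConj_one_left.1 h, (hxy h.symm).elim, rfl])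
    rw [Finset.card_insert_of_notMem (by simp [hx.symm, hy.symm]),
      Finset.card_pair fun e : x = y => hxy (e ▸ IsConj.refl x)] at h1
    let f : {ψ : IrrCharacter T // classInner (fun n : L.subgroupOf T => (ψ : T → ℂ) n)
        (fun n => η 1 (j n)) ≠ 0} → IrrCharacter X := fun ψ =>
      ⟨_, isIrr_indFun_inertia L T hLT (e1 1) hT ψ.1.2 (hj _ ▸ ψ.2)⟩
    have hf : Function.Injective f := fun ψ ψ' h => Subtype.ext (Subtype.ext
      (clifford_corr_inj L T hLT (e1 1) hT ψ.1.2 ψ'.1.2 (hj _ ▸ ψ.2) (hj _ ▸ ψ'.2)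
        (congrArg Subtype.val h)))
    have hov : ∀ ψ, classInner (fun n : L => (f ψ : X → ℂ) n) (η 1) ≠ 0 := fun ψ =>
      inner_res_indFun_ne_zero hLT ψ.1.2 (isCharacter_of_isIrr (e1 1)) (hj _ ▸ ψ.2)
    have := Fintype.ofFinite {ψ : IrrCharacter T // classInner
      (fun n : L.subgroupOf T => (ψ : T → ℂ) n) (fun n => η 1 (j n)) ≠ 0}
    have h2 := four (insert χ₀ (Finset.univ.image f)) (by
      simp only [Finset.mem_insert, Finset.mem_image]
      rintro _ (rfl | ⟨ψ, -, rfl⟩)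
      exacts [hB _ _ hχ₀, hB _ _ (hov ψ)])
    rw [Finset.card_insert_of_notMem, Finset.card_image_of_injective _ hf, Finset.card_univ,
      ← Nat.card_eq_fintype_card] at h2
    · omega
    rw [Finset.mem_image]
    rintro ⟨ψ, -, rfl⟩
    obtain ⟨g, hg⟩ := clifford_conj L (f ψ).2 (e1 1) (e1 μ) (hov ψ) hχ₀
    have hgT := e4 g 1 μ hg.symm
    rw [hT, mem_inertia] at hgT
    exact hμ (hinj _ _ (hg.trans hgT))

end CfsgLib.K3B
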