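import Mathlib
import Cfsg.Agent.Lib.Blk.BF
import Cfsg.Agent.Lib.Cover.Quot2

/-! K3B package RK: `l(B)` is at most the number of characters of `B` with a normal abelian
`p`-subgroup `V` in the kernel.

`isConj_of_reg`: `x`, `y = x v` `p`-regular, `m = orderOf x * orderOf y`, `c i = x⁻ⁱ yⁱ ∈ V`,
`c (i+1) = x⁻¹ (c i) x * c 1`, `c m = c 0 = 1`. In the commutative group `V`, `w = ∏_{i<m} c i` has
`x⁻¹ w x * (c 1)^m = w`. As `m` is prime to `|V|`, `w = u^m` with `u ∈ V` and `m`-th powers are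
injective: `x⁻¹ u x * c 1 = u`, i.e. `u y u⁻¹ = x`. (Or Schur–Zassenhaus conjugacy from Lib/Coprime.)
`rank_le`: for `χ ∈ B` define `F : X ⧸ V → ℂ`, `F q = χ (s q)` for `p ∤ orderOf q` with `s q` a
`p`-regular preimage (`Cover.exists_pRegular_preimage`), else `0`. By `isConj_of_reg`,
`F (mk x) = χ x` for `p`-regular `x`, and `F` is a class function, `F = ∑ c_β β`. So
`χ° = ∑ c_β (infl β)°`; apply `blockPart B` (`blockPart_reg`, `blockPart_irr_of_mem`,
`blockPart_irr_of_notMem`-type lemmas of Lib/Blk/Reg): `χ° = ∑_{infl β ∈ B} c_β (infl β)°`. Hence the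
span defining `blockRank p B` lies in the span of the `ψ°`, `ψ` in the subtype. -/

set_option autoImplicit false

namespace CfsgLib.K3B

open Cfsg Subgroup

variable {X : Type*} [Group X] [Finite X] {p : ℕ}

theorem isConj_of_reg (hp : p.Prime) {V : Subgroup X} [V.Normal] (hV : IsPGroup p V)
    (hc : IsMulCommutative V) {x y : X} (hx : ¬ p ∣ orderOf x) (hy : ¬ p ∣ orderOf y)
    (h : x⁻¹ * y ∈ V) : IsConj x y := by
  have : Fact p.Prime := ⟨hp⟩
  letI : CommGroup V := { (inferInstance : Group V) with mul_comm := hc.is_comm.comm }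
  have hstep : ∀ i : ℕ, x⁻¹ ^ (i + 1) * y ^ (i + 1) =
      x⁻¹ * (x⁻¹ ^ i * y ^ i) * x⁻¹⁻¹ * (x⁻¹ * y) := fun i => by
    rw [pow_succ' x⁻¹, pow_succ y]; group
  have hmem : ∀ i : ℕ, x⁻¹ ^ i * y ^ i ∈ V := by
    intro i
    induction i with
    | zero => simp
    | succ i ih =>
      rw [hstep]
      exact V.mul_mem (Subgroup.Normal.conj_mem inferInstance _ ih _) h
  let c : ℕ → V := fun i => ⟨x⁻¹ ^ i * y ^ i, hmem i⟩
  let d : V := ⟨x⁻¹ * y, h⟩
  let σ : V ≃* V := MulAut.conjNormal x⁻¹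
  have hc1 : ∀ i, c (i + 1) = σ (c i) * d := fun i => Subtype.ext (by
    simp only [c, d, σ, Subgroup.coe_mul, MulAut.conjNormal_apply]
    exact hstep i)
  set m := orderOf x * orderOf y with hm
  have h0 : c 0 = 1 := Subtype.ext (by simp [c])
  have hm1 : c m = 1 := Subtype.ext (by
    simp only [c, OneMemClass.coe_one]
    rw [inv_pow, hm, pow_mul, pow_orderOf_eq_one, one_pow, mul_comm (orderOf x), pow_mul,
      pow_orderOf_eq_one, one_pow, inv_one, one_mul])
  set w : V := ∏ i ∈ Finset.range m, c i with hw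
  have hw1 : σ w * d ^ m = w := by
    have e1 : σ w * d ^ m = ∏ i ∈ Finset.range m, c (i + 1) := by
      simp only [hc1, Finset.prod_mul_distrib, Finset.prod_const, Finset.card_range, hw, map_prod]
    have e2 := Finset.prod_range_succ' c m
    rw [Finset.prod_range_succ, h0, hm1, mul_one, mul_one] at e2
    rw [e1, ← e2]
  have hcop : (Nat.card V).Coprime m := by
    obtain ⟨k, hk⟩ := IsPGroup.iff_card.1 hV
    rw [hk]
    refine Nat.Coprime.pow_left k ((Nat.Prime.coprime_iff_not_dvd hp).2 fun hd => ?_)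
    rcases (Nat.Prime.dvd_mul hp).1 hd with h1 | h1
    · exact hx h1
    · exact hy h1
  obtain ⟨u, hu⟩ := (powCoprime hcop).surjective w
  have hu' : u ^ m = w := hu
  have hfix : σ u * d = u := by
    apply (powCoprime hcop).injective
    change (σ u * d) ^ m = u ^ m
    rw [mul_pow, ← map_pow, hu', hw1]
  have hfix' : x⁻¹ * (u : X) * x⁻¹⁻¹ * (x⁻¹ * y) = u := by
    have := congrArg Subtype.val hfix
    simpa only [d, σ, Subgroup.coe_mul, MulAut.conjNormal_apply] using this
  refine (isConj_iff.2 ⟨(u : X), ?_⟩ : IsConj y x).symm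
  calc (u : X) * y * (u : X)⁻¹ = x * (x⁻¹ * (u : X) * x⁻¹⁻¹ * (x⁻¹ * y)) * (u : X)⁻¹ := by group
    _ = x := by rw [hfix']; group

open scoped CfsgLib.Char in
theorem rank_le {M : Ideal AlgInt} (hM : IsPModular p M) {B : Set (IrrCharacter X)}
    (hB : IsPBlock M B) {V : Subgroup X} [V.Normal] (hV : IsPGroup p V)
    (hc : IsMulCommutative V) :
    blockRank p B ≤
      Nat.card {χ : IrrCharacter X // χ ∈ B ∧ ∀ v ∈ V, (χ : X → ℂ) v = (χ : X → ℂ) 1} := by
  classical
  have := Fintype.ofFinite X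
  have := Fintype.ofFinite (X ⧸ V)
  let φ : X →* X ⧸ V := QuotientGroup.mk' V
  have hφ : Function.Surjective φ := QuotientGroup.mk'_surjective V
  let B' : Set (IrrCharacter X) := {χ | χ ∈ B ∧ ∀ v ∈ V, (χ : X → ℂ) v = (χ : X → ℂ) 1}
  have hle : Blk.regSpan p B ≤ Blk.regSpan p B' := by
    refine Submodule.span_le.2 ?_
    rintro _ ⟨χ, hχ, rfl⟩
    change pRegularPart p (χ : X → ℂ) ∈ Blk.regSpan p B'
    let F : X ⧸ V → ℂ := fun q =>
      if hq : p ∣ orderOf q then 0
      else (χ : X → ℂ) (Cover.exists_pRegular_preimage hM.1 φ hφ hq).choose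
    have hF : ∀ x : X, ¬ p ∣ orderOf x → F (φ x) = (χ : X → ℂ) x := by
      intro x hx
      have hq := Cover.not_dvd_orderOf_map φ hx
      obtain ⟨h1, h2⟩ := (Cover.exists_pRegular_preimage hM.1 φ hφ hq).choose_spec
      simp only [F, dif_neg hq]
      refine Char.isClassFunction_iff_isConj.1 (Char.irr_isClassFunction χ) _ _
        (isConj_of_reg hM.1 hV hc h1 hx ?_)
      exact QuotientGroup.eq.1 h2
    have hFc : IsClassFunction (X ⧸ V) F := by
      intro q t
      obtain ⟨s, rfl⟩ := hφ t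
      by_cases hq : p ∣ orderOf q
      · have hq' : p ∣ orderOf (φ s * q * (φ s)⁻¹) := by rwa [Blk.orderOf_conj']
        simp only [F, dif_pos hq, dif_pos hq']
      · obtain ⟨g, hg, rfl⟩ := Cover.exists_pRegular_preimage hM.1 φ hφ hq
        rw [← map_inv, ← map_mul, ← map_mul, hF g hg, hF _ (by rwa [Blk.orderOf_conj']),
          Char.irr_isClassFunction χ]
    have h1 : pRegularPart p (χ : X → ℂ) = pRegularPart p (∑ β : IrrCharacter (X ⧸ V),
        classInner F β • (Cover.infl φ hφ β : X → ℂ)) := by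
      funext x
      by_cases hx : p ∣ orderOf x
      · rw [Blk.pRegularPart_of_sing hx, Blk.pRegularPart_of_sing hx]
      · rw [Blk.pRegularPart_of_reg hx, Blk.pRegularPart_of_reg hx, ← hF x hx,
          Char.classFun_apply_eq_sum hFc, Finset.sum_apply]
        rfl
    have h2 := congrArg (blockPart B) h1
    rw [Blk.blockPart_reg hM hB, Blk.blockPart_reg hM hB, Block.blockPart_irr_of_mem hχ,
      Blk.blockPart_sum] at h2
    rw [h2, ← Blk.regLin_apply, map_sum]
    refine Submodule.sum_mem _ fun β _ => ?_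
    rw [Blk.blockPart_smul, map_smul]
    refine Submodule.smul_mem _ _ ?_
    by_cases hβ : Cover.infl φ hφ β ∈ B
    · rw [Block.blockPart_irr_of_mem hβ, Blk.regLin_apply]
      refine Blk.reg_mem_regSpan (B := B') ⟨hβ, fun v hv => ?_⟩
      have hv1 : φ v = 1 := (QuotientGroup.eq_one_iff v).2 hv
      rw [Cover.infl_apply, Cover.infl_apply, hv1, map_one]
    · rw [Block.blockPart_irr_of_notMem hβ, map_zero]
      exact Submodule.zero_mem _
  calc blockRank p B = Module.finrank ℂ (Blk.regSpan p B) := Blk.blockRank_eq B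
    _ ≤ Module.finrank ℂ (Blk.regSpan p B') := Submodule.finrank_mono hle
    _ = blockRank p B' := (Blk.blockRank_eq B').symm
    _ ≤ Nat.card B' := Blk.blockRank_le_card B'

end CfsgLib.K3B
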