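import Mathlib
import Cfsg.Agent.Lib.Cover.Reynolds
import Cfsg.Agent.Lib.Cover.FongReynolds
import Cfsg.Agent.Lib.PGroup.MaxClass
import Cfsg.Agent.Lib.K3B.Cliff
import Cfsg.Agent.Lib.K3B.Rank
import Cfsg.Agent.S4607

/-! K3B: blocks with normal defect group and at most three characters of height zero. -/

set_option autoImplicit false

namespace CfsgLib.K3B

open Cfsg Subgroup CfsgLib.Char CfsgLib.Block CfsgLib.Cover CfsgLib.Blk
open CfsgLib.BrPair (Cz)

variable {X : Type*} [Group X] [Finite X] {p : ℕ} [Fact p.Prime] {M : Ideal AlgInt}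

theorem card_le_of_normal_comm (hM : IsPModular p M) {B : Set (IrrCharacter X)}
    (hB : IsPBlock M B) {V : Subgroup X} [V.Normal] (hV : IsDefectGroup p M B V)
    (hc : IsMulCommutative V) (h3 : Nat.card B ≤ 3) : Nat.card V ≤ 3 := by
  classical
  have := Fintype.ofFinite X
  have hp := hM.1
  have hVp := isPGroup_of_isDefectGroup hV
  by_cases h1 : Nat.card {χ : IrrCharacter X // χ ∈ B ∧ ∀ v ∈ V, (χ : X → ℂ) v = (χ : X → ℂ) 1} ≤ 1
  · have h2 := rank_le hM hB hVp hc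
    have h4 := blockRank_pos hp (IsPBlock_nonempty hM hB)
    rw [card_eq_pow_blockDefect hM hB hV,
      ← Cfsg.Agent.S4607.card_eq_of_rank_one hM hB (by omega) (by omega)]
    exact h3
  obtain ⟨χ₁, χ₂, h12⟩ := Finite.one_lt_card_iff_nontrivial.1 (not_le.1 h1)
  obtain ⟨L, hL⟩ : ∃ L, L = V ⊔ Cz V := ⟨_, rfl⟩
  have hn : L.Normal := hL ▸ inferInstance
  have hVL : V ≤ L := hL ▸ le_sup_left
  have hCL : Cz V ≤ L := hL ▸ le_sup_right
  have hLN := hL ▸ sup_Cz_le_Nz V
  have hG : V.subgroupOf L ⊔ Cz (V.subgroupOf L) = ⊤ := hL ▸ subgroupOf_sup_Cz_eq_top V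
  obtain ⟨b, hb⟩ := Cover.exists_isInducedBlock_of_br_ne_zero hM hVp (H := L) hVL hCL hLN hB
    (br_eB_ne_zero_of_isDefectGroup hM hB hV)
  have hbD := isDefectGroup_of_isInducedBlock hM hVL hLN hb hV
  have hP' := isPGroup_of_isDefectGroup hbD
  obtain ⟨θ, hθ, hker⟩ := exists_mem_ker_of_isPGroup hM (V.subgroupOf L) hP' hb.1
  let j := subgroupOfEquivOfLe hVL
  let ζ : (V →* ℂˣ) → IrrCharacter (V.subgroupOf L) := fun μ =>
    ⟨_, isIrr_unitsHom (μ.comp j.toMonoidHom)⟩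
  let η : (V →* ℂˣ) → IrrCharacter L := fun μ => twistIrr hM hb.1 hG hbD hθ hker (ζ μ)
  have hη : ∀ μ, η μ ∈ b := fun μ => twistIrr_mem hM hb.1 hG hbD hθ hker _
  have hη1 : (η 1 : L → ℂ) = θ := twist_one_eq hM hb.1 hG hbD hθ hker
  have hov : ∀ μ (χ : IrrCharacter X), classInner (fun n : L => (χ : X → ℂ) n) (η μ) ≠ 0 →
      χ ∈ B := fun μ χ h => by
    rw [isInducedBlock_unique hM hb (isInducedBlock_of_covers hM hVp hCL hb.1
      (isPBlock_blockOf χ) ⟨χ, mem_blockOf_self hM χ, η μ, hη μ, h⟩)]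
    exact mem_blockOf_self hM χ
  refine card_le_of_family hVp hc (L := L) (fun g => ?_) hVL (fun μ => η μ) (fun μ => (η μ).2)
    (fun μ v => ?_) (fun g hg μ => ?_) (fun g μ ν h => ?_) ?_ hov h3
    (fun h => h12 (Subtype.ext h)) χ₁.2.1 χ₂.2.1 χ₁.2.2 χ₂.2.2
  · rw [hL, sup_eq_right.2, BrPair.mem_Cz]
    exact fun v hv => BrPair.mem_Cz.2 fun u hu => congrArg Subtype.val (hc.1.1 ⟨u, hu⟩ ⟨v, hv⟩)
  · refine (twist_coe hp hP' (ζ μ) θ ⟨⟨v, hVL v.2⟩, v.2⟩).trans ?_
    rw [twistIrr_coe, twist_one hp hP']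
    change _ = _ * (((μ (j 1) : ℂˣ) : ℂ) * _)
    rw [map_one, map_one, Units.val_one, one_mul]
    rfl
  · rw [hη1, mem_inertia'] at hg
    funext n
    let c : V.subgroupOf L ≃* V.subgroupOf L := j.trans ((MulAut.conjNormal g).trans j.symm)
    refine (Fintype.sum_equiv c.toEquiv _ _ fun s => ?_).symm
    have e1 : ((c s : V.subgroupOf L) : L)⁻¹ * ⟨g * n * g⁻¹, hn.conj_mem n n.2 g⟩ =
        MulAut.conjNormal g ((s : L)⁻¹ * n) := Subtype.ext (by
      change (g * s * g⁻¹)⁻¹ * (g * n * g⁻¹) = g * ((s : X)⁻¹ * n) * g⁻¹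
      group)
    change ((dualAct V g⁻¹ μ (j s) : ℂˣ) : ℂ) * _ = ((μ (j (c s)) : ℂˣ) : ℂ) * pRegularPart p _ (_ * _)
    rw [dualAct_apply, inv_inv]
    refine congrArg₂ _ rfl ?_
    erw [e1]
    rw [pRegularPart_eq_ite, pRegularPart_eq_ite, MulEquiv.orderOf_eq, ← hg]
    rfl
  · have h1 : conjIrr L g (η μ) = η ν := Subtype.ext h
    have h2 : conjIrr L g θ ∈ b :=
      image_conjIrr_eq_of_mem L hM hb.1 (hη μ) (h1 ▸ hη ν) ▸ Set.mem_image_of_mem _ hθ
    rw [hη1]
    exact congrArg Subtype.val (eq_of_ker_of_isDefectGroup hM hb.1 hG hbD hθ hker h2 fun x hx => by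
      rw [conjIrr_apply_one]
      exact hker _ (‹V.Normal›.conj_mem _ hx g))
  · obtain ⟨χ, hχ⟩ := exists_over L (η 1)
    exact not_dvd_relIndex_of_normal_defect L hM hB hV hVL hCL (hov 1 χ hχ)
      (agree_of_over L hM hχ) (le_inertia L (irr_isClassFunction (η 1))) fun s hs => by
        have : (conjIrr L s (η 1) : L → ℂ) = η 1 := hs
        rw [this]
        exact sameBlock_refl hM _

theorem card_le_of_normal (hM : IsPModular p M) {B : Set (IrrCharacter X)}
    (hB : IsPBlock M B) {D : Subgroup X} [D.Normal] (hD : IsDefectGroup p M B D)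
    (h3 : Nat.card {χ : IrrCharacter X // χ ∈ B ∧ blockHeight p B (χ : X → ℂ) = 0} ≤ 3) :
    Nat.card D ≤ 3 := by
  have hp := hM.1
  have hDp := isPGroup_of_isDefectGroup hD
  have hle : ⁅D, D⁆ ≤ D := commutator_le_left D D
  let φ := QuotientGroup.mk' ⁅D, D⁆
  have hφ : Function.Surjective φ := QuotientGroup.mk'_surjective _
  have hk : φ.ker = ⁅D, D⁆ := QuotientGroup.ker_mk' _
  obtain ⟨b, hb, hbB, hbD⟩ := exists_isDefectGroup_map hM φ hφ (hDp.to_le (hk.le.trans hle)) hB hD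
  have : (D.map φ).Normal := Normal.map inferInstance φ hφ
  have hc : ∀ a ∈ D.map φ, ∀ c ∈ D.map φ, a * c = c * a := by
    rintro _ ⟨a, ha, rfl⟩ _ ⟨c, hc, rfl⟩
    rw [← commutatorElement_eq_one_iff_mul_comm, ← map_commutatorElement, ← MonoidHom.mem_ker, hk]
    exact commutator_mem_commutator ha hc
  have h1 : Nat.card b ≤ 3 := by
    refine le_trans (Nat.card_le_card_of_injective (fun χ : b =>
      (⟨infl φ hφ χ, hbB χ.2, ?_⟩ : {χ : IrrCharacter X // χ ∈ B ∧
        blockHeight p B (χ : X → ℂ) = 0})) fun χ ψ h =>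
        Subtype.ext (infl_injective φ hφ (congrArg Subtype.val h))) h3
    have e1 := factorization_charDegree_eq_add hM hb hbD χ.2
    have e2 := factorization_charDegree_eq_add hM hB hD (hbB χ.2)
    rw [charDegree_infl, e1, (reynolds hM hb hbD).1 hc χ χ.2, index_map_eq _ hφ (hk.le.trans hle)] at e2
    omega
  have h2 := card_le_of_normal_comm hM hb hbD
    ⟨⟨fun a c => Subtype.ext (hc a a.2 c c.2)⟩⟩ h1
  have h4 : Nat.card (D.map φ) = Nat.card (D ⧸ commutator D) := by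
    rw [← index, ← relIndex_ker, hk, ← map_subtype_commutator, relIndex, subgroupOf,
      comap_map_eq_self_of_injective D.subtype_injective]
  have h5 : IsCyclic (D ⧸ commutator D) := by
    have h6 : 0 < Nat.card (D ⧸ commutator D) := Nat.card_pos
    rw [h4] at h2
    generalize hn : Nat.card (D ⧸ commutator D) = n at h2 h6
    interval_cases n
    · exact isCyclic_of_card_dvd_prime (p := 2) (by simp [hn])
    · exact isCyclic_of_card_dvd_prime (p := 2) (by simp [hn])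
    · have : Fact (Nat.Prime 3) := ⟨Nat.prime_three⟩
      exact isCyclic_of_card_dvd_prime (p := 3) (by simp [hn])
  have h7 := PGroup.isCyclic_of_isCyclic_quotient_commutator hDp h5
  rw [h4, ← index, (commutator_eq_bot_iff D).2 h7.isMulCommutative, index_bot] at h2
  exact h2

end CfsgLib.K3B
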